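import Cfsg.Agent.Lib.PAdj.Defs
import Cfsg.Agent.Lib.SBal.InstC
import Cfsg.Agent.Lib.SBal.InstT
import Cfsg.Agent.Lib.PQA.Elt

/-! In the exceptional groups a prime `s ≥ 5` of rank two is adjacent to `2` and `3`. -/

set_option autoImplicit false
set_option linter.unusedSectionVars false

namespace H67.PA

open H38 H39 H37 H6.LX Subgroup H67.SB H38.PQ Cfsg Cfsg.Lie
open H61 hiding chi

section Abs
variable {ι l : Type} [Fintype l] [DecidableEq l] {R : RS ι l} {K : Type*} [Field K]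
  {G : Type*} [Group G] {E : Elts R K G} [Finite ι] {T : Tw E} [IsAlgClosed K] {r p t : ℕ}
  [Fact r.Prime] [CharP K r] [hp : Fact p.Prime] {Y : Type*} [Group Y] [Finite Y] {φ : Y →* G}

theorem amb_ord (h : Amb T p) (hφ : Emb T r φ)
    (hd : ∀ z : l → Kˣ, ψ R K z = 1 → z ^ p = 1 → z = 1)
    (hA : ∀ i j, R.A (T.ρ i) (T.ρ j) = R.A i j) (h5 : 5 ≤ p) (hY : Rk2 p Y) (ht : t = 2 ∨ t = 3) :
    Ord Y (t * p) := by
  obtain ⟨a, b, h1⟩ := hY
  have h2 := h1.map φ hφ.inj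
  obtain ⟨y, c, d, ea, eb⟩ := h.toral hd h2
  have p1 : ∀ {c}, (y * Elts.tor h.h3 c * y⁻¹) ^ p = 1 → Elts.tor h.h3 c ^ p = 1 := fun e => by
    simpa using e
  have p2 : ∀ {c}, Elts.tor h.h3 c ^ p = 1 → ∀ s, chi R s c ^ p = 1 := fun e s => by
    rw [← map_pow, chi_eq_of_tor T.hF h.h3 (d := 1) (by rw [map_pow, e, map_one]), map_one]
  obtain ⟨s, -⟩ : ∃ s, ¬ ∀ c, Commute (φ a) (E.x s c) :=
    not_forall.1 fun e => h2.ne_a (by simp [eq_one_of_comm T h.hz e])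
  obtain ⟨i, j, h7, h8⟩ := SB.exists_rel (congrArg Units.val (p2 (p1 (ea ▸ h2.pow_a)) s))
    (congrArg Units.val (p2 (p1 (eb ▸ h2.pow_b)) s))
  have e : φ (a ^ i * b ^ j) = y * Elts.tor h.h3 (c ^ i * d ^ j) * y⁻¹ := by
    rw [map_mul, map_pow, map_pow, ea, eb, conj_pow, conj_pow, map_mul, map_pow, map_pow]; group
  have hs : s ∈ Ker E {Elts.tor h.h3 (c ^ i * d ^ j)} :=
    (mem_Ker_tor T.hF h.h3).2 (Units.ext (by simpa using h8))
  have hx := tor_mem h.h3 (c ^ i * d ^ j)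
  generalize Elts.tor h.h3 (c ^ i * d ^ j) = x at e hs hx
  obtain ⟨k, β, hb⟩ := (isSub_Ker T.hF h.h3 (S := {x}) (by rintro _ rfl; exact hx)).exists_base
  obtain ⟨z, hz, n, e1, T', f1, e2, hA'⟩ := h.fro.std h.h3 h.lang hb hx rfl (e ▸ hφ.fix _)
  have h3 := sub_R3 hb h.h3
  have hT := f1.good h3
  let θ := (MulAut.conj (y * z)).toMonoidHom.comp (E.XS (Ker E {x})).subtype
  have n0 : ∀ u ∈ T'.Γ, ∀ a, u ^ r ^ a = 1 → u ∈ φ.range.comap θ := fun u hu a ha =>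
    hφ.uni _ (by
      change T.σ (y * z * u * (y * z)⁻¹) = y * z * u * (y * z)⁻¹
      conv_rhs => rw [← show T'.σ u = u from hu, e2]
      rw [map_mul, map_mul _ (y * z), map_inv, e1]; group) a (by rw [← map_pow, ha, map_one])
  obtain ⟨-, -, i0, -⟩ := hb.rs.exists_W_sim ⟨s, hs⟩
  obtain ⟨u, ⟨v, hv⟩, hu⟩ : ∃ u ∈ φ.range.comap θ, t ∣ orderOf (θ u) := by
    simp only [orderOf_injective θ ((MulAut.conj _).injective.comp (subtype_injective _))]
    have k3 : ∀ u : E.XS (Ker E {x}), ∀ a, u ≠ 1 → u ^ 3 ^ a = 1 → 3 ∣ orderOf u := fun u a h1 h2 =>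
      by_contra fun e => h1 (orderOf_eq_one_iff.1 (Nat.eq_one_of_dvd_coprimes
        (((Nat.Prime.coprime_iff_not_dvd Nat.prime_three).2 e).pow_left a)
        (orderOf_dvd_of_pow_eq_one h2) dvd_rfl))
    rcases ht with rfl | rfl
    · exact ⟨_, G1_le hT r n0 (L1_le_G1 i0 (nn_mem hT i0)), dvd_of_rep T'.hF Nat.prime_two
        (rep_nn hT i0) (T'.S.wo_wo i0 _) fun e =>
          T'.S.wo_sim (T'.S.mem_orb_self i0) (e.symm ▸ hb.rs.pos_sim i0)⟩
    by_cases e3 : (3 : K) = 0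
    · obtain rfl := (Nat.prime_dvd_prime_iff_eq Fact.out Nat.prime_three).1
        ((CharP.cast_eq_zero_iff K r 3).1 (by exact_mod_cast e3))
      obtain ⟨u, h6, h9⟩ := Good.exists_coI f1 h3 i0
      obtain ⟨a, ha⟩ := H67.exists_pow_U (sub hb E) 3
      refine ⟨u, n0 u h6.2 a (ha u h6.1), k3 u a (fun e => one_ne_zero (h9.unique T'.hF (s := 0) ?_))
        (ha u h6.1)⟩
      simp [CoI, e, PreElts.x_zero]
    · obtain ⟨u, h6, h9, h10⟩ := f1.pel3 h3 e3 (hA' hA) i0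
      exact ⟨u, G1_le hT r n0 (L1_le_G1 i0 h6), k3 u 1 h9 h10⟩
  refine Ord.of_commute (by rcases ht with rfl | rfl <;> norm_num) hp.out (by omega) (x := v)
    (y := a ^ i * b ^ j) (hφ.inj ?_) (by rwa [← orderOf_injective φ hφ.inj, hv])
    (orderOf_eq_prime (h1.pow_eq i j) (h1.ne_one h7)).symm.dvd
  have e4 : y * z * x * (y * z)⁻¹ = y * x * y⁻¹ := by
    conv_rhs => rw [← conj_eq_of_mem_BS h.h3 (S := {x}) rfl hx le_rfl hz]
    group
  rw [map_mul, map_mul _ _ v, hv, e, ← e4]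
  exact (Commute.map (mul_inv_eq_iff_eq_mul.1 (conj_eq_of_mem_BS h.h3 (S := {x}) rfl hx le_rfl
    (E.mem_BS_of_XS u.2))) (MulAut.conj (y * z))).eq

end Abs

variable {F : Type} [Field F] [Fintype F]

theorem six_cop {D : ChevalleyDatum} (hD : D ∈ Tabs) (R : RootSys D) {k : Type*} [Field k] {s : ℕ}
    (hs : s.Prime) (h5 : 5 ≤ s) (z : Fin D.rank → kˣ) (h1 : ψ R.toRS k z = 1) (h4 : z ^ s = 1) :
    z = 1 := by
  refine mem_bot.1 (mem_of_pow_coprime (a := s) (b := 6) ?_ (h4 ▸ one_mem _)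
    (pow_six hD z h1 ▸ one_mem _))
  rw [hs.coprime_iff_not_dvd, show 6 = 2 * 3 from rfl, hs.dvd_mul,
    Nat.prime_dvd_prime_iff_eq hs Nat.prime_two, Nat.prime_dvd_prime_iff_eq hs Nat.prime_three]
  omega

theorem ord_chev {D : ChevalleyDatum} (hD : D ∈ H37.Tabs) {r s : ℕ} (hs : s.Prime) (h5 : 5 ≤ s)
    (hF : (s : F) ≠ 0) (h : Rk2 s (D.group F)) (hr : r = 2 ∨ r = 3) : Ord (D.group F) (r * s) := by
  have := Fact.mk hs
  obtain ⟨R⟩ := nonempty_rootSys hD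
  obtain ⟨p, hp⟩ := CharP.exists F
  have : Fact p.Prime := ⟨CharP.char_is_prime F p⟩
  obtain ⟨k, _, _, _, f, a, ha, -, hk, hf⟩ := exists_setup' F p
  obtain ⟨T, hT, hρ, hA⟩ := exists_amb hD R (p := s) (by
    rintro rfl; exact hF (CharP.cast_eq_zero F s)) hk (fGood_fr hD R ha) (isFr_fr hD R k a) (ρ := 1)
    fun i => ⟨rfl, rfl, rfl, rfl, a, rfl⟩
  exact amb_ord hA (φ := fm hD f) ⟨fm_injective hD f, fun y => (hT _).trans (frA_fm hD f hf y),
    fun g hg n hn => mem_range_of_pow hD R f hf ((hT g).symm.trans hg) hn⟩ (six_cop hD R hs h5)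
    (fun i j => by rw [hρ]; rfl) h5 h hr

open InstT in
theorem ord_2E6 {q : ℕ} (hq : IsPrimePow q) (hF : Fintype.card F = q ^ 2) {r s : ℕ} (hs : s.Prime)
    (h5 : 5 ≤ s) (hs' : (s : F) ≠ 0) (h : Rk2 s (twistedE6 F q)) (hr : r = 2 ∨ r = 3) :
    Ord (twistedE6 F q) (r * s) := by
  have := Fact.mk hs
  obtain ⟨R, E, hE, T0, h0, hA⟩ := H39.exists_E6 hq hF
  obtain ⟨p, a, _, _, ha, rfl, hF'⟩ := exists_char hq hF
  let e := (MulEquiv.subgroupCongr hA).trans (T0.Γ.equivMapOfInjective _ (subtype_injective _)).symm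
  have hD : chevE6 ∈ Tabs := by simp
  have hd := fGood_tw.{0} hD R gok_E6 pow_E6 lam_gdE6 two_pos ha (p := p)
  have h1 := h0.hρ ▸ onS_E6 R p a
  obtain ⟨k, _, _, _, f, N', -, h2, hk, hf⟩ := exists_setup' F p
  obtain rfl := Nat.pow_right_injective (Fact.out : p.Prime).two_le
    (h2.symm.trans (Nat.card_eq_fintype_card.trans hF'))
  obtain ⟨σ0, h3⟩ := exists_isFr_tw hD R gok_E6 lam_gdE6 F a
  obtain ⟨σ, hσ⟩ := hd.ex k
  obtain ⟨T, t1, t2, h4⟩ := exists_amb hD R (p := s) (by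
    rintro rfl; exact hs' (CharP.cast_eq_zero F s)) hk hd hσ h1
  have e3 : ∀ (s : Fin chevE6.nroots) t, hE.grp.x s t = (EG hD R F).x s t := fun s t =>
    Subtype.ext (Units.ext ((hE.coe_x s t).trans (coe_EG_x hD R s t).symm))
  have e5 : ∀ i t, T0.φ i t = t ^ p ^ a := h0.hφ
  have e6 : ∀ g, T0.σ g = σ0 g := DFunLike.congr_fun (hom_ext_simple hE.grp_top
    (φ := T0.σ.toMonoidHom) (ψ := σ0)
    (fun i t => by
      rw [MulEquiv.coe_toMonoidHom, T0.σ_pos, e3, e3, h3, (h1 i).1, (h1 i).2.2.1, e5]; simp [twFD])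
    fun i t => by
      rw [MulEquiv.coe_toMonoidHom, T0.σ_neg, e3, e3, h3, (h1 i).2.1, (h1 i).2.2.2.1, e5]
      simp [twFD])
  refine (amb_ord h4 (φ := (fm hD f).comp T0.Γ.subtype)
    ⟨(fm_injective hD f).comp T0.Γ.subtype_injective,
      fun y => (t1 _).trans ((h3.nat hσ f y).trans (congrArg _ ((e6 _).symm.trans y.2))),
      fun g hg n hn => ?_⟩ (six_cop hD R hs h5) (t2 ▸ fun i j => ?_) h5
    (h.map e.toMonoidHom e.injective) hr).of_injective e.symm.toMonoidHom e.symm.injective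
  · rw [t1] at hg
    obtain ⟨y, rfl⟩ := mem_range_of_pow hD R f hf ((iter_fr hD hσ (step_tw' gok_E6 pow_E6 k a) g).symm.trans
      (Function.iterate_fixed hg 2)) hn
    exact ⟨⟨y, (e6 y).trans (fm_injective hD f ((h3.nat hσ f y).symm.trans hg))⟩, rfl⟩
  · refine (h0.hA _ _).trans (Eq.trans ?_ (h0.hA _ _).symm)
    rw [h0.hρ]
    revert i j
    decide +kernel

end H67.PA
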