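import Cfsg.Agent.Lib.PQA.Base
import Cfsg.Agent.Lib.SBal.Defs
import Cfsg.Agent.S0126

/-! A prime of a non-cyclic outer part which is adjacent to all primes: vocabulary and general
reductions. -/

set_option autoImplicit false
set_option linter.unusedSectionVars false

namespace H67.PA

open Subgroup Cfsg H38.PQ H67.SB H61.KG

section Rk
variable {G G' : Type*} [Group G] [Group G'] {s : ℕ}

/-- `G` contains an elementary abelian subgroup of order `s ^ 2`. -/
def Rk2 (s : ℕ) (G : Type*) [Group G] : Prop := ∃ a b : G, Pair s a b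

theorem Rk2.map (h : Rk2 s G) (f : G →* G') (hf : Function.Injective f) : Rk2 s G' :=
  h.elim fun _ h => h.elim fun _ h => ⟨_, _, h.map f hf⟩

theorem Rk2.of_nc (hs : s.Prime) (h2 : s ≠ 2) [Finite G] {T : Subgroup G} (hT : IsPGroup s T)
    (hc : ¬ IsCyclic T) : Rk2 s G := by
  have := Fact.mk hs
  obtain ⟨A, -, h1, h3⟩ := Cfsg.Agent.S0126.result h2 hT hc
  obtain ⟨a, -, b, -, h⟩ := exists_pair h1 h3
  exact Rk2.map ⟨a, b, h⟩ T.subtype T.subtype_injective

theorem not_cyclic_of_pair (hs : s.Prime) [Finite G] {a b : G} (h : Pair s a b) : ¬ IsCyclic G :=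
  fun _ => by
    have := Fact.mk hs
    obtain ⟨n, rfl⟩ := mem_powers_iff_mem_zpowers.2 (mem_zpowers_of_cyclic hs.pos
      (orderOf_eq_prime h.pow_a (by simpa using h.ne_a)) h.pow_b)
    refine hs.one_lt.ne' (Nat.dvd_one.1 (h.ind (n * (s - 1)) 1 ?_).2)
    simp only
    rw [pow_one, ← pow_add, ← Nat.mul_succ, Nat.succ_eq_add_one, Nat.sub_add_cancel hs.one_le,
      mul_comm, pow_mul, h.pow_a, one_pow]

/-- the group generated by a pair -/
theorem exists_of_pair (hs : s.Prime) [Finite G] {a b : G} (h : Pair s a b) : ∃ A : Subgroup G,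
    IsMulCommutative A ∧ ¬ IsCyclic A ∧ ∀ x ∈ A, x ^ s = 1 := by
  have h1 : ∀ x ∈ ({a, b} : Set G), ∀ y ∈ ({a, b} : Set G), x * y = y * x := by
    rintro _ (rfl | rfl) _ (rfl | rfl)
    exacts [rfl, h.comm, h.comm.symm, rfl]
  have h2 := isMulCommutative_closure h1
  refine ⟨closure {a, b}, h2, not_cyclic_of_pair hs (a := ⟨a, subset_closure (by simp)⟩)
    (b := ⟨b, subset_closure (by simp)⟩) ⟨Subtype.ext h.comm, Subtype.ext h.pow_a,
      Subtype.ext h.pow_b, fun i j e => h.ind i j (congrArg Subtype.val e)⟩, fun x hx => ?_⟩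
  induction hx using closure_induction with
  | mem x hx => rcases hx with rfl | rfl; exacts [h.pow_a, h.pow_b]
  | one => exact one_pow s
  | mul x y hx hy e1 e2 =>
    rw [Commute.mul_pow (congrArg Subtype.val (h2.is_comm.comm ⟨x, hx⟩ ⟨y, hy⟩)), e1, e2, one_mul]
  | inv x _ e => rw [inv_pow, e, inv_one]

theorem exists_nc_of_surj (hs : s.Prime) [Finite G] (f : G →* G') (hf : Function.Surjective f)
    {T : Subgroup G'} (hT : IsPGroup s T) (hc : ¬ IsCyclic T) (P : Sylow s G) : ¬ IsCyclic P :=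
  fun _ => by
    have := Fact.mk hs
    have := Finite.of_surjective f hf
    obtain ⟨Q, hQ⟩ := hT.exists_le_sylow
    have : IsCyclic (P.mapSurjective hf) := isCyclic_of_surjective _ (f.subgroupMap_surjective P)
    have := isCyclic_of_surjective _ ((P.mapSurjective hf).equiv Q).surjective
    exact hc (isCyclic_of_le hQ)

theorem Rk2.of_surj (hs : s.Prime) (h2 : s ≠ 2) [Finite G] (f : G →* G')
    (hf : Function.Surjective f) (h : Rk2 s G') : Rk2 s G := by
  have := Fact.mk hs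
  have := Finite.of_surjective f hf
  obtain ⟨a, b, h⟩ := h
  obtain ⟨A, -, h1, h3⟩ := exists_of_pair hs h
  obtain ⟨P⟩ : Nonempty (Sylow s G) := inferInstance
  exact Rk2.of_nc hs h2 P.isPGroup' (exists_nc_of_surj hs f hf (T := A)
    (fun x => ⟨1, Subtype.ext (by simpa using h3 x x.2)⟩) h1 P)

theorem Rk2.dvd (hs : s.Prime) (h : Rk2 s G) : s ∣ Nat.card G := by
  have := Fact.mk hs
  obtain ⟨a, b, h⟩ := h
  exact orderOf_eq_prime h.pow_a (by simpa using h.ne_a) ▸ orderOf_dvd_natCard a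

/-- The primes `r` which may be adjacent to all others when `U` is the outer part. -/
structure Cand (r : ℕ) (U : Type*) [Group U] : Prop where
  ker : ∀ (N : Subgroup U) [N.Normal], IsCyclic (U ⧸ N) → r ∣ Nat.card N
  two : r = 2 → ∃ T : Subgroup U, IsPGroup 2 T ∧ ¬ IsCyclic T

theorem Cand.hom {r : ℕ} (h : Cand r G') (π : G →* G') (hπ : Function.Surjective π) {C : Type*}
    [Group C] [IsCyclic C] (f : G →* C) : r ∣ Nat.card f.ker := by
  have := f.normal_ker.map π hπ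
  have : IsCyclic (G ⧸ f.ker) := isCyclic_of_injective _ (QuotientGroup.kerLift_injective f)
  refine (h.ker (f.ker.map π) (isCyclic_of_surjective (QuotientGroup.map _ _ π (le_comap_map _ _))
    fun y => ?_)).trans (card_dvd_of_surjective _ (π.subgroupMap_surjective _))
  obtain ⟨y, rfl⟩ := QuotientGroup.mk_surjective y
  obtain ⟨x, rfl⟩ := hπ y
  exact ⟨x, rfl⟩

theorem Cand.congr {r : ℕ} (h : Cand r G') (e : G ≃* G') : Cand r G :=
  ⟨fun N _ _ => by simpa using h.hom e.toMonoidHom e.surjective (QuotientGroup.mk' N), fun h2 => by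
    obtain ⟨T, h1, h3⟩ := h.two h2
    exact ⟨T.map e.symm.toMonoidHom, h1.map _, fun h4 =>
      h3 ((e.symm.subgroupMap T).isCyclic.2 h4)⟩⟩

end Rk

variable {S S' : Type*} [Group S] [Group S'] {r s t : ℕ}

/-- The outer part of `H`. -/
abbrev O (H : Subgroup (MulAut S)) : Subgroup (Out S) := H.map (QuotientGroup.mk' (Inn S))

/-- What has to be proved family by family. -/
def Fam (S : Type*) [Group S] : Prop := ∀ H : Subgroup (MulAut S), Inn S ≤ H → ∀ r, r.Prime →
  Cand r (O H) → r ∣ Nat.card S ∧ ∀ s, s.Prime → s ≠ r →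
    (s ∣ Nat.card (O H) ∧ ¬ s ∣ Nat.card S ∨ Rk2 s S ∨ s = 2) → Ord H (r * s)

theorem mem_O {H : Subgroup (MulAut S)} (hH : Inn S ≤ H) {a : MulAut S} : (a : Out S) ∈ O H ↔ a ∈ H := by
  conv_rhs => rw [← comap_map_eq_self (f := QuotientGroup.mk' (Inn S)) (H := H)
    (by rwa [QuotientGroup.ker_mk'])]
  rfl

theorem Fam.congr (h : Fam S') (e : S ≃* S') : Fam S := fun H hH r hr hc => by
  let f := (MulAut.congr e).toMonoidHom
  let e' : H ≃* H.map f := (MulAut.congr e).subgroupMap H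
  let e2 : O H ≃* O (H.map f) := ((outCongr e).subgroupMap (O H)).trans
    (MulEquiv.subgroupCongr (by rw [map_map, O, map_map]; rfl))
  obtain ⟨h1, h2⟩ := h (H.map f) (by
    rintro _ ⟨g, rfl⟩
    exact ⟨MulAut.conj (e.symm g), hH ⟨_, rfl⟩, by ext y; simp [f]⟩) r hr (hc.congr e2.symm)
  rw [← Nat.card_congr e.toEquiv, ← Nat.card_congr e2.toEquiv] at h2
  exact ⟨Nat.card_congr e.toEquiv ▸ h1, fun s hs h3 h4 => (h2 s hs h3 (h4.imp_right (.imp_left
    (·.map e.toMonoidHom e.injective)))).of_injective e'.symm.toMonoidHom e'.symm.injective⟩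

theorem Fx.dvd {a : MulAut S} (h : Fx a s) : s ∣ Nat.card S :=
  h.elim fun y h => h.2 ▸ orderOf_dvd_natCard y

variable [Finite S] {H : Subgroup (MulAut S)} {C : Type*} [Group C] [IsCyclic C]

theorem Cand.exists (h : Cand r (O H)) (hr : r.Prime) (hH : Inn S ≤ H) (ψ : Out S →* C) :
    ∃ a ∈ H, orderOf (a : Out S) = r ∧ ψ a = 1 := by
  have := Fact.mk hr
  obtain ⟨⟨⟨x, h1⟩, h2⟩, h3⟩ := exists_prime_orderOf_dvd_card' r
    (h.hom (MonoidHom.id _) Function.surjective_id (ψ.comp (O H).subtype))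
  obtain ⟨a, rfl⟩ := QuotientGroup.mk_surjective x
  exact ⟨a, (mem_O hH).1 h1, by simpa [← orderOf_coe] using h3, h2⟩

theorem Cand.dvd (h : Cand r (O H)) (ψ : Out S →* C) : r ∣ Nat.card ψ.ker :=
  (h.hom (MonoidHom.id _) Function.surjective_id (ψ.comp (O H).subtype)).trans
    (card_comap_dvd_of_injective ψ.ker _ (O H).subtype_injective)

/-- For `r = 2` and a kernel of order two, `H` contains all outer involutions, and there is one
outside the kernel. -/
theorem Cand.sq (h : Cand 2 (O H)) (hH : Inn S ≤ H) (ψ : Out S →* C) (hk : Nat.card ψ.ker ∣ 2) :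
    2 ∣ Nat.card ψ.range ∧ ∀ a : MulAut S, ψ a ^ 2 = 1 → a ∈ H := by
  have := Fact.mk Nat.prime_two
  have : Finite ψ.range := Finite.of_surjective _ ψ.rangeRestrict_surjective
  obtain ⟨a, a1, a2, a3⟩ := h.exists Nat.prime_two hH ψ
  have h1 : ψ.ker ≤ O H := (eq_of_le_of_card_ge (zpowers_le.2 a3) (by
    rw [Nat.card_zpowers, a2]; exact Nat.le_of_dvd two_pos hk)).ge.trans
      (zpowers_le.2 ((mem_O hH).2 a1))
  obtain ⟨T, h2, h3⟩ := h.two rfl
  obtain ⟨x, hx⟩ : ∃ x : T, ψ x ≠ 1 := by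
    by_contra! e
    have : IsCyclic ψ.ker := isCyclic_of_card_dvd_prime hk
    exact h3 (isCyclic_of_injective (((O H).subtype.comp T.subtype).codRestrict ψ.ker e)
      fun _ _ e => Subtype.ext (Subtype.ext (congrArg (·.1) e)))
  obtain ⟨k, hk'⟩ := h2 x
  have h4 : 2 ∣ orderOf (ψ.rangeRestrict x) := by
    obtain ⟨j, -, hj⟩ := (Nat.dvd_prime_pow Nat.prime_two).1 (orderOf_dvd_of_pow_eq_one
      (x := ψ.rangeRestrict x) (n := 2 ^ k) (by
        rw [← map_pow, ← coe_pow, ← coe_pow, hk']; exact map_one _))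
    rcases j with _ | j
    · exact absurd (congrArg Subtype.val (orderOf_eq_one_iff.1 hj)) hx
    · exact hj ▸ dvd_pow_self 2 j.succ_ne_zero
  refine ⟨h4.trans (orderOf_dvd_natCard _), fun a ha => (mem_O hH).1 ?_⟩
  obtain ⟨z, hz⟩ := mem_zpowers_of_cyclic two_pos (orderOf_pow_orderOf_div (orderOf_pos _).ne' h4)
    (b := ψ.rangeRestrict a) (Subtype.ext ha)
  have := mul_mem (zpow_mem (pow_mem x.1.2 (orderOf (ψ.rangeRestrict x) / 2)) z) (h1 (x :=
    ((x.1.1 ^ (orderOf (ψ.rangeRestrict x) / 2)) ^ z)⁻¹ * a) (by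
      rw [MonoidHom.mem_ker, map_mul, map_inv, inv_mul_eq_one, map_zpow, map_pow]
      exact congrArg Subtype.val hz))
  rwa [mul_inv_cancel_left] at this

/-- A subgroup of prime index over the inner automorphisms which meets `H` lies in `H`. -/
theorem le_of_relIndex (hH : Inn S ≤ H) (hr : r.Prime) {D : Subgroup (MulAut S)} (hD : Inn S ≤ D)
    (hi : (Inn S).relIndex D ∣ r) {a : MulAut S} (h1 : a ∈ H) (h2 : a ∈ D)
    (h3 : orderOf (a : Out S) = r) : D ≤ H := fun d hd => (mem_O hH).1 <| by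
  refine ((eq_of_le_of_card_ge (K := O D) (zpowers_le.2 ((mem_O hD).2 h2)) ?_).ge.trans
    (zpowers_le.2 ((mem_O hH).2 h1))) ((mem_O hD).2 hd)
  rw [Nat.card_zpowers, ← relIndex_ker, QuotientGroup.ker_mk']
  exact (Nat.le_of_dvd hr.pos hi).trans h3.ge

/-- If every automorphism fixes `y` modulo a normal subgroup `D` which is a `t'`-group modulo the
inner automorphisms, then `t` is adjacent to the order of `y`. -/
theorem ord_of_diag (hZ : center S = ⊥) (hH : Inn S ≤ H) (hs : s.Prime) (ht : t.Prime) (hst : t ≠ s)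
    (D : Subgroup (MulAut S)) [D.Normal] (hi : ¬ t ∣ (Inn S).relIndex D) {y : S} (hy : orderOf y = s)
    (h : ∀ a, ∃ d ∈ D, ∃ b, b y = y ∧ a = d * b) (hd : t ∣ Nat.card (O H)) : Ord H (t * s) := by
  have := Fact.mk ht
  obtain ⟨k, hk⟩ := exists_prime_orderOf_dvd_card' t hd
  rw [← orderOf_coe] at hk
  let A := O (MulAction.stabilizer (MulAut S) y)
  have : (O D).Normal := Normal.map inferInstance _ (QuotientGroup.mk'_surjective _)
  have h1 : ¬ t ∣ A.index := fun e => hi <| by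
    have h2 : O D ⊔ A = ⊤ := top_le_iff.1 fun x _ => by
      obtain ⟨a, rfl⟩ := QuotientGroup.mk_surjective x
      obtain ⟨d, h1, b, h2, rfl⟩ := h a
      exact mul_mem_sup (mem_map_of_mem _ h1) (mem_map_of_mem (QuotientGroup.mk' (Inn S)) h2)
    rw [← QuotientGroup.ker_mk' (Inn S), relIndex_ker]
    refine e.trans (Dvd.dvd.trans ?_ (index_dvd_card (A.subgroupOf (O D))))
    refine Nat.dvd_of_mul_dvd_mul_left (Nat.card_pos (α := (O D).subgroupOf A)) ?_
    have e1 := relIndex_sup_right A (O D)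
    rw [sup_comm, h2, relIndex_top_right] at e1
    have e2 := ((O D).subgroupOf A).card_mul_index
    have e3 := (A.subgroupOf (O D)).card_mul_index
    have e4 := A.card_mul_index
    have e5 := (O D).card_mul_index
    have e6 : Nat.card ((O D).subgroupOf A) = Nat.card (A.subgroupOf (O D)) := by
      rw [← inf_subgroupOf_right, ← inf_subgroupOf_right A, Nat.card_congr
        (subgroupOfEquivOfLe inf_le_right).toEquiv, Nat.card_congr
        (subgroupOfEquivOfLe inf_le_right).toEquiv, inf_comm]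
    refine dvd_of_eq (mul_right_cancel₀ (index_ne_zero_of_finite (H := O D)) ?_)
    rw [e6, e3, e5, ← e4, ← e2, e6, e1, relIndex]; ring
  obtain ⟨Q⟩ : Nonempty (Sylow t A) := inferInstance
  let Q' := (Q.isPGroup'.map A.subtype).toSylow (by
    rw [index_map_subtype]; exact ht.not_dvd_mul Q.not_dvd_index h1)
  obtain ⟨P, hP⟩ := (IsPGroup.of_card (n := 1) (by rw [Nat.card_zpowers, hk, pow_one]) :
    IsPGroup t (zpowers (k : Out S))).exists_le_sylow
  obtain ⟨g, rfl⟩ := MulAction.exists_smul_eq (Out S) Q' P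
  obtain ⟨γ, rfl⟩ := QuotientGroup.mk_surjective g
  obtain ⟨_, ⟨⟨_, b, hb, rfl⟩, -, rfl⟩, e⟩ := hP (mem_zpowers _)
  have e' : ((γ * b * γ⁻¹ : MulAut S) : Out S) = k := e
  refine ord_of_fix hZ hH hs ht hst ((mem_O hH).1 (e' ▸ k.2))
    (hk ▸ e' ▸ orderOf_map_dvd (QuotientGroup.mk' (Inn S)) _)
    ⟨γ y, by simpa using hb, hy ▸ orderOf_injective γ.toMonoidHom γ.injective y⟩

/-- The reduction to the primes in `P`. -/
theorem fam_of (P : ℕ → Prop) (hZ : center S = ⊥) (ψ : Out S →* C)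
    (hk : ∀ r, r.Prime → r ∣ Nat.card ψ.ker → P r) (hd : ∀ r, r.Prime → P r → r ∣ Nat.card S)
    (hF : ∀ t, t.Prime → ¬ t ∣ Nat.card S → t ∣ Nat.card ψ.range → ∃ a : MulAut S,
      t ∣ orderOf (a : Out S) ∧ ∀ r, r.Prime → P r → Fx a r)
    (hA : ∀ H : Subgroup (MulAut S), Inn S ≤ H → ∀ r s : ℕ, r.Prime → s.Prime → s ≠ r → P r →
      Cand r (O H) → Rk2 s S ∨ s = 2 → Ord H (r * s)) : Fam S := fun H hH r hr hc => by
  have h1 := hk r hr (hc.dvd ψ)
  refine ⟨hd r hr h1, fun s hs h2 h3 => h3.elim (fun h3 => ?_) (hA H hH r s hr hs h2 h1 hc)⟩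
  have h4 : ¬ s ∣ Nat.card ψ.ker := fun e => h3.2 (hd s hs (hk s hs e))
  obtain ⟨a, h5, h6⟩ := hF s hs h3.2
    ((dvd_card_map ψ hs h4 h3.1).trans (card_dvd_of_le (map_le_range _ _)))
  exact (adj_of_fix hZ hH hr hs h2 (cyclic_of_ker ψ hs h4) h3.1 h5 (h6 r hr h1)).comm

/-- The version in which the adjacency is seen in `S`. -/
theorem fam_of' (P : ℕ → Prop) (hZ : center S = ⊥) (ψ : Out S →* C)
    (hk : ∀ r, r.Prime → r ∣ Nat.card ψ.ker → P r) (hd : ∀ r, r.Prime → P r → r ∣ Nat.card S)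
    (hF : ∀ t, t.Prime → ¬ t ∣ Nat.card S → t ∣ Nat.card ψ.range → ∃ a : MulAut S,
      t ∣ orderOf (a : Out S) ∧ ∀ r, r.Prime → P r → Fx a r)
    (hA : ∀ r s : ℕ, r.Prime → s.Prime → s ≠ r → P r → Rk2 s S ∨ s = 2 → Ord S (r * s)) : Fam S :=
  fam_of P hZ ψ hk hd hF fun _ hH r s hr hs h1 h2 _ h3 => (hA r s hr hs h1 h2 h3).inn hZ hH

theorem fam_of_ker (ψ : Out S →* C) (h : Nat.card ψ.ker ∣ 1) : Fam S := fun _ _ _ hr hc =>
  absurd ((hc.dvd ψ).trans h) hr.not_dvd_one

theorem fam_of_cyclic [IsCyclic (Out S)] : Fam S := fam_of_ker (MonoidHom.id _) (by simp)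

end H67.PA
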