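import Cfsg.Agent.Lib.PAdj.Defs
import Cfsg.Agent.Lib.XS3.Cls
import Cfsg.Agent.Lib.SBal.Wt

/-! Dimension bounds for matrix groups containing an elementary abelian group of rank two. -/

set_option autoImplicit false
set_option linter.unusedSectionVars false

namespace H67.PA

open Cfsg Cfsg.Agent H65 H65.XS H67.SB Matrix Module

variable {G : Type*} [Group G] {p : ℕ} [hp : Fact p.Prime] {F : Type*} [Field F] [Fintype F]
  {n : Type*} [Fintype n] [DecidableEq n]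

theorem exists_ev_two (L : Type*) [Field L] [Algebra F L] [IsAlgClosed L] [DecidableEq L]
    (hq : ¬ p ∣ Fintype.card F) (ρ : G →* Matrix n n F) (hρ : Function.Injective ρ) (h : Rk2 p G) :
    ∃ z : G, ∃ α ∈ ev L (ρ z), orderOf α = p ∧ 2 ≤ (ev L (ρ z)).count α := by
  obtain ⟨r, hr, _, hpr⟩ := exists_char hq
  have := charP_of_injective_algebraMap (algebraMap F L).injective r
  have : NeZero (p : L) := ⟨fun e => hpr ((Nat.prime_dvd_prime_iff_eq hr hp.out).1
    ((CharP.cast_eq_zero_iff L r p).1 e)).symm⟩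
  obtain ⟨ζ, hζ⟩ := HasEnoughRootsOfUnity.exists_primitiveRoot L p
  obtain ⟨a, b, h⟩ := h
  let φ : G →* Matrix n n L := (algebraMap F L).mapMatrix.toMonoidHom.comp ρ
  have hφ : Function.Injective φ := (Matrix.map_injective (algebraMap F L).injective).comp hρ
  have hx : φ a ^ p = (1 : L) ^ p • 1 := by rw [← map_pow, h.pow_a]; simp
  have hy : φ b ^ p = (1 : L) ^ p • 1 := by rw [← map_pow, h.pow_b]; simp
  have ex : ∀ i j : ℕ, ¬ (p ∣ i ∧ p ∣ j) →
      ∃ α β v, v ≠ 0 ∧ Wv (φ a) (φ b) α β v ∧ α ^ i * β ^ j ≠ 1 := fun i j k => by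
    by_contra! e
    refine k (h.ind i j (hφ (toLin'.injective (LinearMap.ext fun v => ?_))))
    simpa only [toLin'_apply, one_mulVec, one_smul, map_one, map_mul, map_pow] using mem_eig.1
      (joint hζ one_ne_zero one_ne_zero hx hy (h.comm.map φ)
        (P := LinearMap.ker (toLin' (φ a ^ i * φ b ^ j) - (1 : L) • LinearMap.id))
        (fun α β v w => mem_eig.2 (by
          by_cases h0 : v = 0
          · simp [h0]
          · rw [w.pow, e α β v h0 w])) v)
  obtain ⟨α, β, v, v0, w, k⟩ := ex 1 0 fun e => hp.out.one_lt.ne' (Nat.dvd_one.1 e.1)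
  have pw : ∀ {α β v}, v ≠ 0 → Wv (φ a) (φ b) α β v → α ^ p = 1 ∧ β ^ p = 1 := fun v0 w =>
    ⟨by simpa using eig_pow hx w.1 v0, by simpa using eig_pow hy w.2 v0⟩
  obtain ⟨i, j, k1, k2⟩ := SB.exists_rel (pw v0 w).1 (pw v0 w).2
  obtain ⟨α', β', v', v0', w', k3⟩ := ex i j k1
  obtain ⟨i', j', -, k4, k5⟩ := exists_common (pw v0 w).1 (pw v0 w).2 (pw v0' w').1 (pw v0' w').2
    (fun e => k (by simp [e.1])) k2 k3
  have h1 : 2 ≤ (ev L (ρ (a ^ i' * b ^ j'))).count (α ^ i' * β ^ j') := by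
    rw [ev, Polynomial.count_roots, ← Matrix.charpoly_map, ← Matrix.charpoly_toLin',
      ← LinearMap.finrank_maxGenEigenspace_eq]
    let W := End.eigenspace (toLin' (φ (a ^ i' * b ^ j'))) (α ^ i' * β ^ j')
    have m : ∀ {γ δ u}, Wv (φ a) (φ b) γ δ u → γ ^ i' * δ ^ j' = α ^ i' * β ^ j' → u ∈ W :=
      fun w e => End.mem_eigenspace_iff.2 (by rw [toLin'_apply, map_mul, map_pow, map_pow, w.pow, e])
    refine le_trans ?_ (Submodule.finrank_mono End.eigenspace_le_maxGenEigenspace : finrank L W ≤ _)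
    refine (LinearIndependent.fintype_card_le_finrank (b := ![(⟨v, m w rfl⟩ : W), ⟨v', m w' k4.symm⟩])
      ((LinearIndependent.pair_iff' (fun e => v0 (congrArg Subtype.val e))).2 fun c e => k3 ?_))
    obtain rfl : c • v = v' := congrArg Subtype.val e
    have := w'.pow i j
    rw [mulVec_smul, w.pow, k2, one_smul, eq_comm] at this
    exact smul_left_injective L v0' (this.trans (one_smul _ _).symm)
  refine ⟨_, _, Multiset.count_pos.1 (two_pos.trans_le h1), orderOf_eq_prime ?_ k5, h1⟩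
  rw [mul_pow, pow_right_comm, (pw v0 w).1, pow_right_comm, (pw v0 w).2]; simp

theorem dim_GL (hq : ¬ p ∣ Fintype.card F) (ρ : G →* Matrix n n F) (hρ : Function.Injective ρ)
    (h : Rk2 p G) : ∃ e, 0 < e ∧ p ∣ w (Fintype.card F) e ∧ e * 2 ≤ Fintype.card n := by
  classical
  obtain ⟨z, α, h1, h2, h3⟩ := exists_ev_two (AlgebraicClosure F) hq ρ hρ h
  obtain ⟨O, h4, h5, -, h6⟩ := exists_orbit (RingHom.injective _) (ev_frob (ρ z)) h1
  have h7 := card_mul_count_le h6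
  rw [card_ev] at h7
  refine ⟨O.card, h4, ?_, (Nat.mul_le_mul_left _ h3).trans h7⟩
  rw [frob_iterate] at h5
  have h0 : α ≠ 0 := by rintro rfl; rw [orderOf_zero] at h2; exact hp.out.ne_zero h2.symm
  rw [w_nat Fintype.card_pos, ← h2]
  refine orderOf_dvd_of_pow_eq_one (mul_right_cancel₀ h0 ?_)
  rw [← pow_succ, Nat.sub_add_cancel (Nat.one_le_pow _ _ Fintype.card_pos), h5, one_mul]

theorem dim_form (h2 : p ≠ 2) (hq : ¬ p ∣ Fintype.card F) (ρ : G →* Matrix n n F)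
    (hρ : Function.Injective ρ) (h : Rk2 p G)
    (hi : ∀ g, (H65.ev (AlgebraicClosure F) (ρ g)).map (·⁻¹) = H65.ev (AlgebraicClosure F) (ρ g)) :
    ∃ e, 0 < e ∧ p ∣ w (Fintype.card F ^ 2 : ℕ) e ∧ 2 * (e * 2) ≤ Fintype.card n := by
  classical
  obtain ⟨z, α, h1, h3, h4⟩ := exists_ev_two (AlgebraicClosure F) hq ρ hρ h
  obtain ⟨e, O, h5, h6, h7, -, -, h8⟩ := exists_orbit_ev
    ((Matrix.isUnit_iff_isUnit_det _).1 ((Group.isUnit z).map ρ)).ne_zero (hi z) h1
    (not_orderOf_dvd_two hp.out h2 h3.symm.dvd)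
  have h9 := card_mul_count_le h8
  rw [card_ev, h6, mul_assoc] at h9
  refine ⟨e, h5, ?_, (Nat.mul_le_mul_left _ (Nat.mul_le_mul_left _ h4)).trans h9⟩
  rw [w_sq Fintype.card_pos, mul_comm, pow_mul, ← one_pow 2, Nat.sq_sub_sq, ← h3]
  exact h7.elim (·.mul_left _) (·.mul_right _)

theorem dim_U {q : ℕ} (hF : Fintype.card F = q ^ 2) (hq : ¬ p ∣ q) {m : ℕ} (h : Rk2 p (SU m F q)) :
    ∃ e, 0 < e ∧ p ∣ w (-q) e ∧ e * 2 ≤ m := by
  classical
  have : H11.U.IsSq F q := ⟨hF⟩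
  obtain ⟨r, a, hr, _, hq', ha⟩ := H11.U.exists_char_pow F q
  have hq2 := H11.U.two_le_q F q
  have := Fact.mk hr
  obtain ⟨σ, hσ, -⟩ := H66.exists_conjHom hF
  obtain ⟨z, α, h1, h2, h3⟩ := exists_ev_two (AlgebraicClosure F)
    (fun e => hq (hp.out.dvd_of_dvd_pow (hF ▸ e))) ((slToMat m F).comp (SU m F q).subtype)
    (fun x y e => Subtype.ext (Subtype.ext e)) h
  have hz := (H66.mem_SU_iff hσ _).1 z.2
  obtain ⟨O, h4, -, h5, h6, h7⟩ := exists_uorbit (uf_injective F hq') (ev_unitary hq' hσ hz)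
    (fun e => ne_zero_of_mem_ev (det_ne_zero_of_unitary hz) e rfl) (by omega) h1
  have h8 := card_mul_count_le h7
  rw [card_ev, Fintype.card_fin] at h8
  refine ⟨O.card, h4, ?_, (Nat.mul_le_mul_left _ h3).trans h8⟩
  rw [w, ← uu_eq_natAbs (by omega), ← h2]
  exact orderOf_dvd_of_pow_eq_one (h6 α ((h5 α).2 ⟨0, by simp⟩))

theorem not_rk2_SL_two (h2 : p ≠ 2) (hq : ¬ p ∣ Fintype.card F) :
    ¬ Rk2 p (Matrix.SpecialLinearGroup (Fin 2) F) := fun h => by
  classical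
  obtain ⟨z, α, -, h3, h4⟩ := exists_ev_two (AlgebraicClosure F) hq (slToMat 2 F)
    (fun _ _ e => Subtype.ext e) h
  have h5 := prod_ev (L := AlgebraicClosure F) (slToMat 2 F z)
  rw [← Multiset.eq_of_le_of_card_le (Multiset.le_count_iff_replicate_le.1 h4)
    (by simp [card_ev]), Multiset.prod_replicate, show (slToMat 2 F z).det = 1 from z.2, map_one] at h5
  exact h2 ((Nat.prime_dvd_prime_iff_eq hp.out Nat.prime_two).1 (h3 ▸ orderOf_dvd_of_pow_eq_one h5))

end H67.PA
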