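import Cfsg.Agent.Lib.PAdj.Amb
import Cfsg.Agent.Lib.PQA.Tw

/-! The adjacency statement for the exceptional groups. -/

set_option autoImplicit false
set_option linter.unusedSectionVars false
set_option linter.style.haveILetI false

namespace H67.PA

open Cfsg Cfsg.Lie Cfsg.Agent Subgroup H38.PQ H65.XS H61 H61.KG H37

variable {F : Type} [Field F] [Fintype F]

namespace XF

theorem cast_ne {p s : ℕ} [hp : Fact p.Prime] [CharP F p] (hs : s.Prime) (h : s ≠ p) : (s : F) ≠ 0 :=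
  fun k => h ((Nat.prime_dvd_prime_iff_eq hp.out hs).1 ((CharP.cast_eq_zero_iff F p s).1 k)).symm

theorem fam_pair {p : ℕ} [hp : Fact p.Prime] [CharP F p] {D : ChevalleyDatum} (hD : D ∈ Tabs)
    (hs : SimplyLaced D ∨ ∀ π : Equiv.Perm (Fin D.rank), D.IsDiagramSymmetry π →
      π = 1 ∨ π = Fin.revPerm) (i : Fin D.rank) {a f : ℕ} (ha : a ∣ 6) (hF : Fintype.card F = p ^ f)
    (hc : Nat.card (Out (D.group F)) = a * f)
    (r s : Fin D.nroots) (h : D.IsPosRoot r ∧ D.IsPosRoot s ∧ D.pairing r s = 0 ∧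
      ∀ k : Fin D.nroots, |D.pairing r k| < 2 ∨ |D.pairing s k| < 2) : Fam (D.group F) := by
  obtain ⟨R, E, hE⟩ := H38.exists_isMat hD F
  simp only [R.isPosRoot_iff, R.pairing_eq] at h
  rw [← H67.card_ringAut (F := F) (p := p) (f := f) (by rw [Nat.card_eq_fintype_card, hF])] at hc
  obtain ⟨ψ, hψ⟩ : ∃ ψ : Out (D.group F) →* RingAut F, (∀ σ, ψ (fieldAut (H37.tab hD) σ :
      MulAut (D.group F)) = σ) ∨ ∀ σ, ψ (fieldAut (H37.tab hD) σ : MulAut (D.group F)) = σ ^ 2 := by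
    rcases hs with hs | hs
    · obtain ⟨ψ, h⟩ := exists_out_hom hE.grp_faith hE.grp_top (centerless hE) (fun f => f i) rfl
        fun {θ θ' ρ ρ' c c' f f'} h h' => by
          change f' (ρ i) * f i = _
          rw [h'.f_eq hE.grp_faith (connected hD R)
            (hs.A_perm R (isDiagramSymmetry_of_pinned hE h')) (ρ i) i]
      exact ⟨ψ, .inl fun σ => h (ρ := 1) (pinned_fieldAut hE (H37.tab hD) σ)⟩
    · let _ := IsCyclic.commGroup (α := RingAut F)
      obtain ⟨ψ, h⟩ := exists_out_hom hE.grp_faith hE.grp_top (centerless hE)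
        (fun f => f i * f (Fin.rev i)) (mul_one _) fun {θ θ' ρ ρ' c c' f f'} h h' => by
          change f' (ρ i) * f i * (f' (ρ (Fin.rev i)) * f (Fin.rev i)) = _
          rcases hs ρ (isDiagramSymmetry_of_pinned hE h) with rfl | rfl
          · exact mul_mul_mul_comm _ _ _ _
          · rw [mul_mul_mul_comm, Fin.revPerm_apply, Fin.revPerm_apply, Fin.rev_rev, mul_comm (f' i)]
      exact ⟨ψ, .inr fun σ => (h (ρ := 1) (pinned_fieldAut hE (H37.tab hD) σ)).trans (pow_two _).symm⟩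
  have key : ∀ σ t, t = 2 ∨ t = 3 → Fx (fieldAut (H37.tab hD) σ : MulAut (D.group F)) t :=
    fun σ t e => (has_A1 hE.grp_faith hp.out h.1 (.inr e)).fx fun _ => fix_G1 (fieldAut_x hE _ σ)
  refine fam_of' (fun t => t = 2 ∨ t = 3) hE.center_eq_bot ψ (fun t ht e => ?_)
    (fun t _ e => Fx.dvd (key 1 t e)) (fun t ht h1 e => ?_) fun u v hu hv huv h1 h2 => ?_
  · have h4 := card_ker_dvd ψ (k := 2) (fun σ => hψ.elim
      (fun e => pow_mem (MonoidHom.mem_range.2 ⟨_, e σ⟩) 2) fun e => ⟨_, e σ⟩) hc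
    exact (small_prime ht e).1 (h4.trans ((Nat.mul_dvd_mul_right ha 2).trans (by norm_num)))
  · haveI := Fact.mk ht
    obtain ⟨σ, rfl⟩ := exists_prime_orderOf_dvd_card' t (e.trans (card_subgroup_dvd_card _))
    refine ⟨_, Dvd.dvd.trans ?_ (orderOf_map_dvd ψ _), fun r _ => key σ r⟩
    rcases hψ with k | k <;> rw [k]
    rw [Nat.Coprime.orderOf_pow ((Nat.coprime_primes ht Nat.prime_two).2 fun e =>
      h1 (e ▸ Fx.dvd (key 1 2 (.inl rfl))))]
  · by_cases e : v = p ∨ v = 2 ∨ v = 3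
    · obtain ⟨x, hx, h3⟩ := has_A1 hE.grp_faith hp.out h.1 (.inr h1)
      obtain ⟨y, hy, h4⟩ := has_A1 hE.grp_faith hp.out h.2.1 e
      exact Ord.of_commute hu hv huv.symm
        (commute_pair h.2.2.1 h.2.2.2 x (G1_le_XS hx) y (G1_le_XS hy)) h3 h4
    · push Not at e
      exact ord_chev hD hv (hv.five_le_of_ne_two_of_ne_three e.2.1 e.2.2) (cast_ne hv e.1)
        (h2.resolve_right e.2.1) h1

theorem fam_field {S C : Type*} [Group S] [Finite S] [Group C] [IsCyclic C]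
    (Φ : C →* MulAut S) (h : ∀ α, ∃ g φ, α = MulAut.conj g * Φ φ) : Fam S := by
  have hs : Function.Surjective ((QuotientGroup.mk' (Inn S)).comp Φ) := fun y => by
    obtain ⟨α, rfl⟩ := QuotientGroup.mk_surjective y
    obtain ⟨g, φ, rfl⟩ := h α
    refine ⟨φ, ?_⟩
    rw [QuotientGroup.mk_mul, (QuotientGroup.eq_one_iff (N := Inn _) _).2 ⟨g, rfl⟩, one_mul]
    rfl
  have := isCyclic_of_surjective _ hs
  exact fam_of_cyclic

end XF

open XF

theorem fam_G2 (h : 3 ≤ Fintype.card F) : Fam (chevG2.group F) := by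
  obtain ⟨p, f, _, _, -, hF⟩ := exists_pf F
  exact fam_pair (by simp) (.inr symmetry_G2) ⟨0, by decide⟩ (a := if p = 3 then 2 else 1)
    (by split_ifs <;> decide) hF ((S2121.result p f hF (hF ▸ h)).trans (by split_ifs <;> simp))
    ⟨7, by decide⟩ ⟨11, by decide⟩ (by decide +kernel)

theorem fam_F4 : Fam (chevF4.group F) := by
  obtain ⟨p, f, _, _, -, hF⟩ := exists_pf F
  exact fam_pair (by simp) (.inr symmetry_F4) ⟨0, by decide⟩
    ((Nat.gcd_dvd_left _ _).trans (by decide)) hF (S2122.result p f hF)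
    ⟨33, by decide⟩ ⟨24, by decide⟩ (by decide +kernel)

theorem fam_E6 : Fam (chevE6.group F) := by
  obtain ⟨p, f, _, _, -, hF⟩ := exists_pf F
  exact fam_pair (by simp) (.inl simplyLaced_E6) ⟨0, by decide⟩
    (Nat.mul_dvd_mul_left 2 (Nat.gcd_dvd_left _ _)) hF (S2123.result p f hF)
    ⟨chevE6.simple 5, by decide⟩ ⟨chevE6.simple 0, by decide⟩ (by decide +kernel)

theorem fam_E7 : Fam (chevE7.group F) := by
  obtain ⟨p, f, _, _, -, hF⟩ := exists_pf F
  exact fam_pair (by simp) (.inl simplyLaced_E7) ⟨0, by decide⟩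
    ((Nat.gcd_dvd_left _ _).trans (by decide)) hF (S2124.result p f hF)
    ⟨chevE7.simple 5, by decide⟩ ⟨chevE7.simple 0, by decide⟩ (by decide +kernel)

theorem fam_E8 : Fam (chevE8.group F) := by
  obtain ⟨p, f, _, _, -, hF⟩ := exists_pf F
  exact fam_pair (by simp) (.inl simplyLaced_E8) ⟨0, by decide⟩ (one_dvd _) hF
    ((S2125.result p f hF).trans (one_mul _).symm)
    ⟨chevE8.simple 5, by decide⟩ ⟨chevE8.simple 0, by decide⟩ (by decide +kernel)

variable {S : Type*} [Group S] [Finite S]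

open H39 H39.Tw

theorem fam_2E6 (hZ : center S = ⊥) (h : Iso2E6 S) : Fam S := by
  obtain ⟨F, _, _, q, hq, hF, ⟨e⟩⟩ := h
  obtain ⟨p, f, hp, _, -, -⟩ := exists_pf F
  obtain ⟨R, E, hE, T, h, hA⟩ := H39.exists_E6 hq hF
  have e0 := (MulEquiv.subgroupCongr hA).trans
    (T.Γ.equivMapOfInjective _ (Subgroup.subtype_injective _)).symm
  have e' := e.trans e0
  have hD := H39.hasDF (T := T) (by simp) fun i => ⟨_, h.hφ i⟩
  have h1 : T.ρ (1 : Fin 6) = (1 : Fin 6) := by rw [h.hρ]; rfl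
  have hK := H39.Tw.exists_UJ (h.orth 2) (a := (2 : Fin 6)) (by decide) h.hext
  obtain ⟨ψ, hψ⟩ := exists_tw_hom h.good h.h3 hD ⟨2, hK⟩ (h.inPA hD)
  have h3 := has_node hp.out h1 (s := 3) (.inr (.inr rfl))
  refine (fam_of' (· = 3) (center_congr hZ e') ψ (fun t ht e => ?_)
    (fun t _ e => e ▸ Fx.dvd (a := 1) (h3.sub.fx fun _ _ => rfl)) (fun t ht _ e => ?_)
    fun r s hr hs hsr k h2 => ?_).congr e'
  · exact (Nat.prime_dvd_prime_iff_eq ht Nat.prime_three).1
      ((e.trans (card_ker_dvd ψ hψ (h.card_out hD))).trans (by simp [Nat.gcd_dvd_left]))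
  · haveI := Fact.mk ht
    obtain ⟨σ, rfl⟩ := exists_prime_orderOf_dvd_card' t (e.trans (card_subgroup_dvd_card _))
    obtain ⟨δ, hδ⟩ := hD.ex 1 σ
    exact ⟨T.res δ (hδ.comm (one_mem _) (hD.comm σ)), res_ord h.good ⟨2, hK⟩ hδ fun _ => rfl,
      fun s _ e => e ▸ (h3.mono (inf_le_inf_right _ (G1_fix (σ := σ) fun r t => by
        simpa using hδ r t))).sub.fx fun g hg => Subtype.ext hg⟩
  subst k
  by_cases e : s = p ∨ s = 2
  · obtain ⟨x, hx, h4⟩ := h3.sub
    obtain ⟨y, hy, h5⟩ := (has_orb hp.out (h.orth 0) e).sub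
    refine Ord.of_commute hr hs hsr.symm (Subtype.ext (commute_node (j := (1 : Fin 6))
      (J := {k | k ∈ orbE6 0}) (fun k hk => ?_) _
      (G1_le_XS (mem_subgroupOf.1 hx)) _ (mem_subgroupOf.1 hy)).eq) h4 h5
    rw [h.hA]
    exact (by decide : ∀ k ∈ orbE6 0, 1 ≠ k ∧ matF 6 alE6 k 1 = 0) k hk
  · push Not at e
    exact (ord_2E6 hq hF hs (hs.five_le_of_ne_two_of_ne_three e.2 hsr) (cast_ne hs e.1)
      ((h2.resolve_right e.2).map e0.symm.toMonoidHom e0.symm.injective) (.inr rfl)).of_injective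
      e0.toMonoidHom e0.injective

theorem fam_3D4 (h : Iso3D4 S) : Fam S := by
  obtain ⟨F, _, _, q, hq, hF, ⟨e⟩⟩ := h
  obtain ⟨R, E, hE, T, h, hA⟩ := H39.exists_D4 hq hF
  have e' := (e.trans (MulEquiv.subgroupCongr hA)).trans
    (T.Γ.equivMapOfInjective _ (Subgroup.subtype_injective _)).symm
  have hD := H39.hasDF (T := T) (by simp) fun i => ⟨_, h.hφ i⟩
  obtain ⟨ψ, hψ⟩ := exists_tw_hom h.good h.h3 hD
    ⟨0, H39.Tw.exists_UJ (h.orth 0) (by decide) h.hext⟩ (h.inPA hD)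
  exact (fam_of_ker ψ (card_ker_dvd ψ (a := 1) hψ (by rw [h.card_out hD, one_mul]))).congr e'

theorem fam_2F4 (h : Iso2F4 S) : Fam S := by
  obtain ⟨F, _, _, m, hm, hF, ⟨e⟩⟩ := h
  obtain ⟨R, E, hE, T, h, hA⟩ := H39.exists_F4 hF
  have e' := (e.trans (MulEquiv.subgroupCongr hA)).trans
    (T.Γ.equivMapOfInjective _ (Subgroup.subtype_injective _)).symm
  have hD := H39.hasDF (T := T) (by simp) fun i => ⟨_, h.hφ i⟩
  have hq : 2 < Fintype.card F := by
    rw [hF]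
    exact lt_of_lt_of_le (by norm_num) (Nat.pow_le_pow_right two_pos (show 3 ≤ 2 * m + 1 by omega))
  obtain ⟨ψ, hψ⟩ := exists_tw_hom h.good h.h3 hD
    ⟨3, H39.Tw.exists_UJ h.orth0 (by simp) h.hext⟩ (h.inPA hq hD)
  exact (fam_of_ker ψ (card_ker_dvd ψ (a := 1) hψ (by rw [h.card_out hq hD, one_mul]))).congr e'

theorem fam_Sz (h : IsoSuzuki S) : Fam S := by
  obtain ⟨F, _, _, m, hm, hF, ⟨e⟩⟩ := h
  have : H14.Sz.SzF F m := ⟨hm, hF⟩
  have := finite_of_equiv e
  let M := H14.Sz.lieModel F m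
  exact (fam_field M.fieldAutHom M.exists_eq_conj_mul_fieldAut).congr e

theorem fam_Ree (h : IsoRee S) : Fam S := by
  obtain ⟨F, _, _, m, hm, hF, ⟨e⟩⟩ := h
  have := H40.Ree.charP_three hF
  have hq := H40.Ree.three_lt_card hm hF
  have := finite_of_equiv e
  let M := H40.Ree.lieModel hF
  exact (fam_field M.fieldAutHom (M.exists_eq_conj_mul_fieldAut hq)).congr e

end H67.PA
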