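import Cfsg.Agent.Lib.PAdj.Dim
import Cfsg.Agent.Lib.PQA.Lin

/-! A prime adjacent to all others: the linear groups. -/

set_option autoImplicit false
set_option linter.unusedSectionVars false
set_option linter.style.haveILetI false

namespace H67.PA

open Cfsg Cfsg.Agent Subgroup H38.PQ H65.XS Matrix H63.Emb H61.KG

variable {F : Type} [Field F] [Fintype F]

namespace Lin

section
variable {ι : Type*} [Fintype ι] [DecidableEq ι] {i j : ι} (h : i ≠ j)

/-- an elementary transvection -/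
def tv : SpecialLinearGroup ι F := ⟨transvection i j 1, det_transvection_of_ne i j h 1⟩

include h in
theorem tv_pow (m : ℕ) : transvection i j (1 : F) ^ m = transvection i j (m : F) := by
  induction m with
  | zero => simp
  | succ m ih => rw [pow_succ, ih, transvection_mul_transvection_same i j h, Nat.cast_succ]

theorem tv_ord (hZ : ∀ g, g ∈ center (SpecialLinearGroup ι F) ↔
    Matrix.SpecialLinearGroup.toGL g ∈ center (GL ι F)) {s : ℕ} (hs : s.Prime) (h0 : (s : F) = 0) :
    orderOf (QuotientGroup.mk (tv h) : ProjectiveSpecialLinearGroup ι F) = s := by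
  refine ord_mk hZ hs ?_ fun k => ?_
  · rw [show Matrix.SpecialLinearGroup.toGL (tv (F := F) h) ^ s = 1 from Units.ext (by
      rw [Units.val_pow_eq_pow_val]
      exact (tv_pow h s).trans (by rw [h0, transvection_zero]; rfl))]
    exact one_mem _
  · obtain ⟨c, hc⟩ := GeneralLinearGroup.mem_center_iff_val_mem_range_scalar.1 k
    change _ = transvection i j (1 : F) at hc
    simpa [transvection, h] using congrFun (congrFun hc i) j

theorem tv_fix (σ : RingAut F) : pslField ι F σ (QuotientGroup.mk (tv h)) = QuotientGroup.mk (tv h) :=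
  indAut_mk toGL_inj _ (Units.ext (by
    change transvection i j (1 : F) = Matrix.map (transvection i j (1 : F)) σ
    ext a b
    simp [transvection, one_apply, single, apply_ite σ]))

end

theorem cast_zero {s : ℕ} (hs : s.Prime) (h : s ∣ Fintype.card F) : (s : F) = 0 :=
  haveI := Fact.mk hs
  (ringChar.spec F s).2 (((Nat.prime_dvd_prime_iff_eq hs (CharP.char_is_prime F _)).1
    ((prime_dvd_char_iff_dvd_card s).2 h)).symm.dvd)

theorem two (h4 : 4 ≤ Fintype.card F) : Fam (ProjectiveSpecialLinearGroup (Fin 2) F) := by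
  obtain ⟨p, f, _, _, hf, hF⟩ := exists_pf' F
  obtain ⟨hZ, hS⟩ := center_psl (F := F) (n := 2) le_rfl
  obtain ⟨φ, -, -, h6⟩ := S2602.result hf hF (hF ▸ h4)
  haveI : NeZero f := ⟨by omega⟩
  have hc := Nat.card_eq_fintype_card (α := F)
  have key : ∀ σ, Fx (pslField (Fin 2) F σ) 2 := fun σ => by
    let y : SpecialLinearGroup (Fin 2) F := ⟨!![0, 1; -1, 0], by simp⟩
    refine ⟨y, indAut_mk toGL_inj _ (Units.ext ?_), ord_mk hZ Nat.prime_two ?_ fun k => ?_⟩
    · change !![0, 1; -1, 0] = Matrix.map !![0, 1; -1, 0] σ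
      ext i j
      fin_cases i <;> fin_cases j <;> simp
    · refine GeneralLinearGroup.mem_center_iff_val_mem_range_scalar.2 ⟨-1, ?_⟩
      rw [pow_two]
      change _ = !![(0 : F), 1; -1, 0] * !![0, 1; -1, 0]
      ext i j
      fin_cases i <;> fin_cases j <;> simp
    · obtain ⟨c, hc⟩ := GeneralLinearGroup.mem_center_iff_val_mem_range_scalar.1 k
      change _ = !![(0 : F), 1; -1, 0] at hc
      simpa using congrFun (congrFun hc 0) 1
  have ord : ∀ {t}, t.Prime → t ∣ Nat.card φ.range → ∃ σ, orderOf σ = t ∧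
      t ∣ orderOf (pslField (Fin 2) F σ : Out (ProjectiveSpecialLinearGroup (Fin 2) F)) := fun ht e => by
    obtain ⟨σ, hσ⟩ := exists_aut_ord (hc.trans hF) ht (by simpa using e.trans (card_subgroup_dvd_card _))
    exact ⟨σ, hσ, hσ ▸ dvd_orderOf_of_hom _ (fun σ k => pslField_mem_range (by simp) (inn_le_pslInn k)) σ⟩
  have hk : Nat.card φ.ker ∣ 2 := h6 ▸ Nat.gcd_dvd_left _ _
  refine fam_of (· = 2) hS φ (fun r hr e => (Nat.prime_dvd_prime_iff_eq hr Nat.prime_two).1 (e.trans hk))
    (fun r _ e => by rw [e]; exact Fx.dvd (key 1)) (fun t ht _ e => ?_) ?_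
  · obtain ⟨σ, -, hσ⟩ := ord ht e
    exact ⟨_, hσ, fun r _ e => e ▸ key σ⟩
  · rintro H hH _ s - hs h2 rfl hc' h3
    haveI := Fact.mk hs
    obtain ⟨k1, k2⟩ := hc'.sq hH φ hk
    obtain ⟨σ, k3, k4⟩ := ord Nat.prime_two k1
    refine ord_of_fix hS hH hs Nat.prime_two h2.symm (k2 _ ?_)
      (k4.trans (orderOf_map_dvd (QuotientGroup.mk' (Inn _)) _)) ⟨_, tv_fix zero_ne_one σ, tv_ord _ hZ hs
        (cast_zero hs (by_contra fun e => not_rk2_SL_two h2 e
          ((h3.resolve_right h2).of_surj hs h2 _ (QuotientGroup.mk'_surjective _))))⟩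
    rw [← map_pow, ← QuotientGroup.mk_pow, ← map_pow, orderOf_dvd_iff_pow_eq_one.1 k3.dvd, map_one,
      QuotientGroup.mk_one, map_one]

/-- a permutation matrix of order three -/
def cy : SpecialLinearGroup (Fin 3) F := ⟨!![0, 0, 1; 1, 0, 0; 0, 1, 0], by simp [det_fin_three]⟩

theorem cy_fix (r : RingAut F × Multiplicative (ZMod 2)) :
    pslOuter (Fin 3) F r (QuotientGroup.mk cy) = QuotientGroup.mk cy := by
  have h1 : ∀ σ, pslField (Fin 3) F σ (QuotientGroup.mk cy) = QuotientGroup.mk cy := fun σ =>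
    indAut_mk toGL_inj _ (Units.ext (by
      change !![0, 0, 1; 1, 0, 0; 0, 1, 0] = Matrix.map !![0, 0, 1; 1, 0, 0; 0, 1, 0] σ
      ext i j
      fin_cases i <;> fin_cases j <;> simp))
  have h2 : pslDual (Fin 3) F (QuotientGroup.mk cy) = QuotientGroup.mk cy :=
    indAut_mk toGL_inj _ (Units.ext (by
      change !![0, 0, 1; 1, 0, 0; 0, 1, 0] = ((Matrix.SpecialLinearGroup.toGL (cy (F := F)))⁻¹).valᵀ
      rw [Units.inv_eq_of_mul_eq_one_right (a := !![0, 1, 0; 0, 0, 1; 1, 0, 0]) (by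
        change !![(0 : F), 0, 1; 1, 0, 0; 0, 1, 0] * _ = _
        ext i j
        fin_cases i <;> fin_cases j <;> simp)]
      ext i j
      fin_cases i <;> fin_cases j <;> simp))
  obtain ⟨σ, e⟩ := r
  rcases zmod_two_cases e with rfl | rfl
  · rw [pslOuter_one, h1]
  · rw [pslOuter_dual, MulAut.mul_apply, h2, h1]

theorem cy_ord : orderOf (QuotientGroup.mk cy : ProjectiveSpecialLinearGroup (Fin 3) F) = 3 := by
  refine ord_mk (center_psl (F := F) (n := 3) (by norm_num)).1 Nat.prime_three ?_ fun k => ?_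
  · refine GeneralLinearGroup.mem_center_iff_val_mem_range_scalar.2 ⟨1, ?_⟩
    rw [pow_three]
    change _ = !![(0 : F), 0, 1; 1, 0, 0; 0, 1, 0] * (!![0, 0, 1; 1, 0, 0; 0, 1, 0] * !![0, 0, 1; 1, 0, 0; 0, 1, 0])
    ext i j
    fin_cases i <;> fin_cases j <;> simp
  · obtain ⟨c, hc⟩ := GeneralLinearGroup.mem_center_iff_val_mem_range_scalar.1 k
    change _ = !![(0 : F), 0, 1; 1, 0, 0; 0, 1, 0] at hc
    simpa using congrFun (congrFun hc 1) 0

theorem ord_even {s : ℕ} (hs : s.Prime) (h2 : 2 ≠ s) (h3 : s ≠ 3) (h0 : 2 ∣ Fintype.card F)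
    (h : s ∣ Nat.card Fˣ) : Ord (ProjectiveSpecialLinearGroup (Fin 3) F) (2 * s) := by
  obtain ⟨hZ, -⟩ := center_psl (F := F) (n := 3) (by norm_num)
  haveI := Fact.mk hs
  obtain ⟨a, ha⟩ := exists_prime_orderOf_dvd_card' s h
  have a1 : (a : F) ^ s = 1 := by rw [← Units.val_pow_eq_pow_val, ← ha, pow_orderOf_eq_one, Units.val_one]
  let x : SpecialLinearGroup (Fin 3) F := ⟨diagonal ![(a : F), a, (a : F)⁻¹ ^ 2], by
    simp [Fin.prod_univ_three, ← pow_two]⟩
  refine Ord.of_commute Nat.prime_two hs h2 (Commute.map (x := tv zero_ne_one) (y := x) (Subtype.ext ?_)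
    (QuotientGroup.mk' _)) (tv_ord _ hZ Nat.prime_two (cast_zero Nat.prime_two h0)).symm.dvd
    (ord_mk hZ hs ?_ fun k => ?_).symm.dvd
  · change transvection 0 1 (1 : F) * diagonal ![(a : F), a, (a : F)⁻¹ ^ 2] =
      diagonal ![(a : F), a, (a : F)⁻¹ ^ 2] * transvection 0 1 (1 : F)
    ext i j
    fin_cases i <;> fin_cases j <;> simp [transvection, single]
  · rw [show Matrix.SpecialLinearGroup.toGL x ^ s = 1 from Units.ext (by
      rw [Units.val_pow_eq_pow_val]
      change diagonal ![(a : F), a, (a : F)⁻¹ ^ 2] ^ s = 1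
      rw [diagonal_pow, ← diagonal_one]
      congr 1
      ext i
      fin_cases i <;> simp [a1, pow_right_comm _ 2 s])]
    exact one_mem _
  · obtain ⟨c, hc⟩ := GeneralLinearGroup.mem_center_iff_val_mem_range_scalar.1 k
    change _ = diagonal ![(a : F), a, (a : F)⁻¹ ^ 2] at hc
    have e0 : c = a := by simpa using congrFun (congrFun hc 0) 0
    have e2 : c = (a : F)⁻¹ ^ 2 := by simpa using congrFun (congrFun hc 2) 2
    refine h3 ((Nat.prime_dvd_prime_iff_eq hs Nat.prime_three).1 (ha ▸ orderOf_dvd_of_pow_eq_one (Units.ext ?_)))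
    have := a.ne_zero
    rw [Units.val_pow_eq_pow_val, pow_succ]
    exact (congrArg ((a : F) ^ 2 * ·) (e0.symm.trans e2)).trans (by simp)

theorem three {n : ℕ} (hn : 3 ≤ n) : Fam (ProjectiveSpecialLinearGroup (Fin n) F) := by
  obtain ⟨hZ, hS⟩ := center_psl (F := F) (n := n) (by omega)
  have hq : 1 < Fintype.card F := Fintype.one_lt_card
  have hw : w (Fintype.card F) 1 = Fintype.card F - 1 := by rw [w_nat hq.le, pow_one]
  have hc := Nat.card_eq_fintype_card (α := F)
  have h3 : 3 ≤ Fintype.card (Fin n) := by simpa using hn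
  have := normal_range_pslInn (F := F) (ι := Fin n) (by omega)
  obtain ⟨π, hπ, -⟩ := exists_proj (pslInn (Fin n) F).range (pslOuter (Fin n) F) (psl_aut_outer (by omega))
    (pslOuter_mem_range h3)
  have hi : (Inn _).relIndex (pslInn (Fin n) F).range = Nat.gcd n (w (Fintype.card F) 1) := by
    have := relIndex_det_ker_pslInn (F := F) (ι := Fin n) (by omega)
    rw [Fintype.card_fin, relIndex_map_range, sup_comm] at this
    rw [hw, ← hc, inn_psl_eq, relIndex_map_range, this]
  let φ : Out (ProjectiveSpecialLinearGroup (Fin n) F) →* _ := QuotientGroup.lift _ π (hπ ▸ inn_le_pslInn)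
  have key : ∀ σ r, r.Prime → r = 2 ∨ r ∣ Nat.gcd n (w (Fintype.card F) 1) → Fx (pslField (Fin n) F σ) r :=
    fun σ r hr k => (fe_SL hn σ hr (Or.inr (k.elim (by omega) fun k =>
      Nat.le_of_dvd (by omega) (k.trans (Nat.gcd_dvd_left _ _))))).fx toGL_inj hZ hr _
  have dd : ∀ s, s.Prime → Rk2 s (ProjectiveSpecialLinearGroup (Fin n) F) ∨ s = 2 →
      DD (Fintype.card F) (Fintype.card F) (n / 2) s := fun s hs k => by
    by_cases e2 : s = 2
    · exact dd_of_le hs Int.natCast_dvd_natCast.1 (Or.inr (by omega))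
    by_cases e : s ∣ Fintype.card F
    · exact Or.inl e
    haveI := Fact.mk hs
    obtain ⟨e, k1, k2, k3⟩ := dim_GL e (slToMat n F) (fun x y e => Subtype.ext e)
      ((k.resolve_right e2).of_surj hs e2 _ (QuotientGroup.mk'_surjective _))
    exact Or.inr ⟨e, k1, by simp at k3; omega, k2⟩
  refine fam_of (fun r => r = 2 ∨ r ∣ Nat.gcd n (w (Fintype.card F) 1)) hS ((MonoidHom.fst _ _).comp φ)
    (fun r hr e => ?_) (fun r hr e => Fx.dvd (key 1 r hr e)) (fun t ht _ e => ?_)
    fun H hH r s hr hs hsr h1 h2 h4 => ?_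
  · have k := e.trans (card_ker_fst φ)
    rw [QuotientGroup.ker_lift, ← relIndex_ker, QuotientGroup.ker_mk', hπ, hi] at k
    exact ((Nat.Prime.dvd_mul hr).1 k).symm.imp_left fun k =>
      (Nat.prime_dvd_prime_iff_eq hr Nat.prime_two).1 (by simpa using k)
  · haveI := Fact.mk ht
    obtain ⟨σ, hσ⟩ := exists_prime_orderOf_dvd_card' t (e.trans (card_subgroup_dvd_card _))
    exact ⟨pslField _ F σ, hσ ▸ dvd_orderOf_of_hom _
      (fun σ k => pslField_mem_range (by omega) (inn_le_pslInn k)) σ, key σ⟩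
  have d1 := dd s hs h4
  rcases hn.eq_or_lt with rfl | hn
  · have d2 : s ∣ Nat.card (SLg (Fin 2) F) :=
      dvd_SL le_rfl (hc ▸ d1.imp_right fun ⟨e, k1, k2, k3⟩ => ⟨e, k1, by omega, k3⟩)
    obtain ⟨a, a1, a2, a3⟩ := h2.exists hr hH ((MonoidHom.fst _ _).comp φ)
    have hB : Nat.card Fˣ = w (Fintype.card F) 1 := by rw [hw, Nat.card_units, hc]
    rcases h1 with rfl | h1
    · by_cases e : 2 ∣ Fintype.card F
      · by_cases e3 : s = 3
        · subst e3
          exact ord_of_diag hS hH hs hr hsr.symm (pslInn (Fin 3) F).range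
            (fun k => absurd ((hi ▸ k).trans (Nat.gcd_dvd_left _ _)) (by norm_num)) cy_ord (fun a => by
              obtain ⟨d, hd, r, rfl⟩ := psl_aut_outer (by simp) a
              exact ⟨d, hd, _, cy_fix r, rfl⟩) (a2 ▸ orderOf_dvd_natCard _ ((mem_O hH).2 a1))
        · refine (ord_even hs hsr.symm e3 e ?_).inn hS hH
          rcases d1 with k | ⟨e', k1, k2, k3⟩
          · obtain ⟨p, f, _, _, -, hF⟩ := exists_pf' F
            rw [hF] at k e
            exact absurd (((Nat.prime_dvd_prime_iff_eq hs Fact.out).1 (hs.dvd_of_dvd_pow k)).trans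
              ((Nat.prime_dvd_prime_iff_eq hr Fact.out).1 (hr.dvd_of_dvd_pow e)).symm) hsr
          · obtain rfl : e' = 1 := by omega
            rwa [hB]
      · exact ((pr_neg hs (two_ne_of_w (q := 0) (fun _ _ => Int.natCast_dvd_natCast.2) (by rw [hw]; omega))
          (finSumFinEquiv (m := 2) (n := 1)) (block_SL _) neg_SL d2).ord toGL_inj hZ hr hs hsr.symm).inn hS hH
    · obtain rfl := (Nat.prime_dvd_prime_iff_eq hr Nat.prime_three).1 (h1.trans (Nat.gcd_dvd_left _ _))
      have a4 : π a ^ 3 = 1 := by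
        change φ a ^ 3 = 1
        rw [← map_pow, orderOf_dvd_iff_pow_eq_one.1 a2.dvd, map_one]
      have a5 : a ∈ (pslInn (Fin 3) F).range := hπ ▸ Prod.ext a3
        ((by decide : ∀ x : Multiplicative (ZMod 2), x ^ 3 = 1 → x = 1) _ (congrArg Prod.snd a4))
      haveI := Fact.mk hr
      obtain ⟨c, hc3⟩ := exists_prime_orderOf_dvd_card' 3 (hB ▸ h1.trans (Nat.gcd_dvd_right _ _))
      obtain ⟨x, hx, k5, k6⟩ := exists_el hs d2
      obtain ⟨g, hg⟩ := block_SL (finSumFinEquiv (m := 2) (n := 1)) x hx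
      refine ord_of_fix hS hH hs hr hsr.symm (a := ((pslInn _ F).comp dg) c)
        (le_of_relIndex hH hr inn_le_pslInn (hi ▸ Nat.gcd_dvd_left _ _) a1 a5 a2 ⟨_, rfl⟩) ?_
        ⟨g, indAut_mk toGL_inj _ (by rw [hg]; exact (dg_conj c x).symm), El.ord hZ hs (hg ▸ el_block _ k5 k6)⟩
      rw [orderOf_injective _ ((injective_iff_map_eq_one _).2 fun c k =>
        dg_center ((pslInn_eq_one_iff (by simp)).1 k)), hc3]
  · exact ((pr_SL (a := n / 2) (by omega) (by omega) hr hs (hc ▸ h1.elim (fun e => dd r hr (Or.inr e))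
      fun e => Or.inr ⟨1, one_pos, by omega, e.trans (Nat.gcd_dvd_right _ _)⟩) (hc ▸ d1)).ord toGL_inj hZ hr hs
      hsr.symm).inn hS hH

end Lin

theorem fam_psl {n : ℕ} (hn : 2 ≤ n) (h4 : n = 2 → 4 ≤ Fintype.card F) :
    Fam (Matrix.ProjectiveSpecialLinearGroup (Fin n) F) := by
  rcases hn.eq_or_lt with rfl | hn
  exacts [Lin.two (h4 rfl), Lin.three hn]

end H67.PA
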