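import Cfsg.Agent.Lib.PAdj.OrthA
import Cfsg.Agent.Lib.PQA.Orth

/-! The family statement for the orthogonal groups. -/

set_option autoImplicit false
set_option linter.unusedSectionVars false

namespace H67.PA

open Cfsg Cfsg.Agent Subgroup H65.XS Matrix H63.Emb H67 H61.KG H38.PQ

variable {F : Type} [Field F] [Fintype F]

theorem fam_orth {ι μ : Type} [Fintype ι] [DecidableEq ι] [Fintype μ] [DecidableEq μ] {k : ℕ}
    (e : (Fin k ⊕ Fin k) ⊕ μ ≃ ι) {q : (ι → F) → F} {Q' : (μ → F) → F}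
    (hQ : ∀ v, q v = quadFormPlus k F (v ∘ e ∘ Sum.inl) + Q' (v ∘ e ∘ Sum.inr))
    (hq : NQ q) (hk : 3 ≤ k) (h7 : 7 ≤ Fintype.card ι) (h3 : k = 3 → Nonempty μ) {p f : ℕ}
    [hp : Fact p.Prime] [CharP F p] (hF : Fintype.card F = p ^ f) {C : Type*} [Group C] [IsCyclic C]
    (ψ : Out (POmega F q) →* C) (k1 : Nat.card ψ.ker ∣ 24) (k2 : Nat.card ψ.range ∣ 2 * f)
    {T : GamL ι F} (hT : T ∈ GamO q) (hT1 : orderOf T.right = f) {M : GL μ F}
    (hT2 : T.left = glBlock ((Equiv.sumComm _ _).trans e) M) : Fam (POmega F q) := by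
  have h5 : 5 ≤ Fintype.card ι := by omega
  obtain ⟨hZ, hS⟩ := center_pom hq h5
  have hc := Nat.card_eq_fintype_card (α := F)
  have hmap : ∀ {s t}, Pr (SLg (Fin k) F) s t → Pr (Geo.omegaGL q) s t := fun h =>
    h.map _ (hyp_mem_omega e hQ hk) fun _ _ h => h.hyp.block e
  have key : ∀ r, r.Prime → r = 2 ∨ r = 3 → Fx (pomGam q ⟨T, hT⟩) r := fun s hs h' => by
    obtain ⟨x, hx, k3, k4⟩ := fe_SL hk T.right hs (Or.inr (by omega))
    refine fx_ind omJ_inj hZ hs _ (range_omJ q ▸ hyp_mem_omega e hQ hk x hx) (k3.hyp.block e) ?_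
    change gamAut ι F T (glBlock e (hypGL x)) = glBlock e (hypGL x)
    rw [gamAut_eq, MulAut.mul_apply, field_block, field_hyp, k4, hT2]
    exact mul_inv_eq_iff_eq_mul.2 (commute_block e _ M).symm
  refine fam_of' (fun r => r = 2 ∨ r = 3) hS ψ (fun t ht e => ?_) (fun r hr h => Fx.dvd (key r hr h))
    (fun t ht h e' => ⟨pomGam q ⟨T, hT⟩, dvd_orderOf_mk fun n hn => ?_, key⟩)
    fun r s hr hs hsr h1 h4 => ?_
  · have := Nat.le_of_dvd (by norm_num) (e.trans k1)
    have := e.trans k1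
    interval_cases t <;> simp_all (config := {decide := true})
  · rw [← map_pow, inn_pom_eq le_rfl (omega_le_GO q)] at hn
    have := ((pomGam_mem_range hq h5 le_rfl hq.center_le).1 (map_le_range _ _ hn)).2
    rw [SubgroupClass.coe_pow, right_pow, ← orderOf_dvd_iff_pow_eq_one, hT1] at this
    exact (((Nat.Prime.dvd_mul ht).1 (e'.trans k2)).resolve_left fun k => h
      ((Nat.prime_dvd_prime_iff_eq ht Nat.prime_two).1 k ▸ Fx.dvd (key 2 Nat.prime_two (Or.inl rfl)))
      ).trans this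
  refine (Pr.ord omJ_inj hZ hs hr hsr (range_omJ q ▸ ?_)).comm
  by_cases h6 : s ∣ Fintype.card F ∨ s ≤ 3
  swap
  · rw [not_or] at h6
    obtain ⟨Q, rfl, hn⟩ := hq
    have h2 : s ≠ 2 := by omega
    refine pr_orth hn h7 hs h2 (fun k => h6.1 ?_) (((h4.resolve_right h2).of_surj hs h2 _
      (QuotientGroup.mk'_surjective _)).map ((omJ Q).codRestrict _ omJ_mem)
        fun _ _ k => omJ_inj (congrArg (·.1) k :)) h1
    have := Fact.mk hs
    exact (prime_dvd_char_iff_dvd_card s).1 (ringChar.eq F p ▸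
      ((Nat.prime_dvd_prime_iff_eq hp.out hs).1 ((CharP.cast_eq_zero_iff F p s).1 k)).symm.dvd)
  have h8 : r ∣ Fintype.card F ∨ r ≤ 3 := Or.inr (by omega)
  have d : ∀ s, s.Prime → s ∣ Fintype.card F ∨ s ≤ 3 → DD (Nat.card F) (Nat.card F) 2 s :=
    fun s hs h => dd_of_le hs Int.natCast_dvd_natCast.1 (hc ▸ h)
  rcases hk.eq_or_lt with rfl | hk'
  swap
  · exact hmap (pr_SL le_rfl (by omega) hs hr (d s hs h6) (d r hr h8))
  have := h3 rfl
  have d2 : ∀ s, s.Prime → s ∣ Fintype.card F ∨ s ≤ 3 → Pr (Geo.omegaGL q) s p := fun s hs h => by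
    obtain ⟨x, hx, k3, k4⟩ := exists_el hs (dvd_SL le_rfl (d s hs h))
    exact pr_char e hQ hq h5 le_rfl p (block_SL (finSumFinEquiv (m := 2) (n := 1)) x hx)
      (el_block _ k3 k4)
  by_cases e1 : s = p
  · exact (e1 ▸ d2 r hr h8).symm
  by_cases e2 : r = p
  · exact e2 ▸ d2 s hs h6
  have d3 : ∀ t, t.Prime → t ≤ 3 → 2 ≠ p → Pr (Geo.omegaGL q) 2 t := fun t ht h h' =>
    hmap (pr_neg ht (fun k => h' ((Nat.prime_dvd_prime_iff_eq hp.out Nat.prime_two).1
      ((CharP.cast_eq_zero_iff F p 2).1 k)).symm) (finSumFinEquiv (m := 2) (n := 1)) (block_SL _)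
      neg_SL (dvd_SL le_rfl (d t ht (Or.inr h))))
  have := hs.two_le
  have := h6.resolve_left fun k =>
    e1 ((Nat.prime_dvd_prime_iff_eq hs hp.out).1 (hs.dvd_of_dvd_pow (hF ▸ k)))
  rcases h1 with rfl | rfl
  · exact (d3 s hs this e2).symm
  · obtain rfl : s = 2 := by omega
    exact d3 3 hr le_rfl e1

theorem fam_odd {m : ℕ} (hm : 3 ≤ m) (ho : Odd (Fintype.card F)) :
    Fam (POmega F (quadFormOdd m F)) := by
  obtain ⟨p, f, _, _, hf, hF⟩ := exists_pf' F
  have hp : p ≠ 2 := by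
    rintro rfl
    rw [hF] at ho
    exact Nat.not_even_iff_odd.2 ho ((Nat.even_pow' (by omega)).2 even_two)
  have : NeZero f := ⟨by omega⟩
  obtain ⟨φ⟩ := S2604.result (m := m) hf hF hp hm
  obtain ⟨σ, -, hσ, -⟩ := exists_frob (Nat.card_eq_fintype_card.trans hF)
  exact fam_orth (Equiv.sumComm _ _) (Q' := fun z : Unit → F => z () ^ 2)
    (fun v => by simp [quadFormOdd, quadFormPlus, add_comm]) (nq_odd (two_ne_zero_of_card hF hp) m) hm
    (by simp; omega) (fun _ => inferInstance) hF _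
    ((ker_snd_dvd (φ.trans (MulEquiv.prodMultiplicative _ _))).trans (by simp))
    ((range_dvd _).mul_left _) (inr_mem_odd m σ) hσ (M := 1) (map_one _).symm

theorem fam_plus {m : ℕ} (hm : 4 ≤ m) : Fam (POmega F (quadFormPlus m F)) := by
  obtain ⟨p, f, _, _, hf, hF⟩ := exists_pf' F
  have : NeZero f := ⟨by omega⟩
  obtain ⟨σ, -, hσ, -⟩ := exists_frob (Nat.card_eq_fintype_card.trans hF)
  have key : ∀ {A : Type} [Group A], Nat.card A ∣ 24 →
      (Out (POmega F (quadFormPlus m F)) ≃* A × Multiplicative (ZMod f)) →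
      Fam (POmega F (quadFormPlus m F)) := fun h φ =>
    fam_orth (Equiv.sumEmpty _ Empty) (Q' := fun _ => 0) (fun v => by simp [quadFormPlus]) (nq_plus m)
      (by omega) (by simp; omega) (by omega) hF _
      ((ker_snd_dvd φ).trans h) ((range_dvd _).mul_left _) (inr_mem_plus m σ) hσ (M := 1)
      (map_one _).symm
  by_cases hp : p = 2
  · subst hp
    have h := S2607.result (m := m) hf hF hm
    split_ifs at h with h4 <;> obtain ⟨φ⟩ := h
    · exact key (by rw [Nat.card_perm]; simp [Nat.factorial]) φ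
    · exact key (by simp) (φ.trans (MulEquiv.prodMultiplicative _ _))
  · have h := S2608.result (m := m) hf hF hp hm
    split_ifs at h with h4 h5 <;> obtain ⟨φ⟩ := h
    · exact key (by rw [Nat.card_perm]; simp [Nat.factorial]) φ
    · exact key (by simp) ((φ.trans (AddEquiv.toMultiplicative AddEquiv.prodAssoc.symm)).trans
        (MulEquiv.prodMultiplicative _ _))
    · exact key (by simp [DihedralGroup.card]) φ

theorem fam_minus {m : ℕ} (hm : 4 ≤ m) {a b : F} (hab : H66.Aniso a b) :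
    Fam (POmega F (quadFormMinus (m - 1) F a b)) := by
  obtain ⟨p, f, _, _, hf, hF⟩ := exists_pf' F
  have : NeZero f := ⟨by omega⟩
  obtain ⟨T, h1, h2, M, h3⟩ := exists_T_minus (Nat.card_eq_fintype_card.trans hF) hab (m - 1)
  have key : ∀ {C : Type _} [Group C] [IsCyclic C]
      (ψ : Out (POmega F (quadFormMinus (m - 1) F a b)) →* C), Nat.card ψ.ker ∣ 24 →
      Nat.card ψ.range ∣ 2 * f → Fam (POmega F (quadFormMinus (m - 1) F a b)) := fun ψ k1 k2 =>
    fam_orth (Equiv.refl _) (Q' := fun z : Fin 2 → F => z 0 ^ 2 + a * z 0 * z 1 + b * z 1 ^ 2)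
      (fun v => by simp [quadFormMinus, quadFormPlus]) (nq_minus hab _) (by omega)
      (by simp; omega) (fun _ => inferInstance) hF ψ k1 k2 h1 h2 h3
  by_cases hp : p = 2
  · subst hp
    obtain ⟨_, k⟩ := S2605.result hf hF hm a b hab
    exact fam_of_cyclic
  · have h := S2606.result hf hF hp hm a b hab
    split_ifs at h <;> obtain ⟨φ⟩ := h
    · exact key _ ((ker_snd_dvd φ).trans (by simp [DihedralGroup.card])) ((range_dvd _).mul_left _)
    · exact key _ ((ker_snd_dvd (φ.trans (MulEquiv.prodMultiplicative _ _))).trans (by simp))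
        (range_dvd _)

end H67.PA
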