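import Cfsg.Agent.Lib.PAdj.Defs
import Cfsg.Agent.Lib.PQA.Blk
import Cfsg.Agent.Lib.SBal.LinOa
import Cfsg.Agent.Lib.Core.CoprimeExt

/-! In the orthogonal groups an odd prime of rank two is adjacent to `2` and `3`. -/

set_option autoImplicit false
set_option linter.unusedSectionVars false

namespace H67.PA

open Subgroup H12 QuadraticMap Module H67.SB H38.PQ Cfsg Matrix

namespace Orth

variable {F W : Type*} [Field F] [Finite F] [AddCommGroup W] [Module F W] [FiniteDimensional F W]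
  {Q : QuadraticForm F W} {p : ℕ} [hp : Fact p.Prime]

theorem exists_moved (hpF : (p : F) ≠ 0) (h : Rk2 p (H12.O Q)) : ∃ y y' : H12.O Q, ∃ v, Commute y' y ∧
    y ^ p = 1 ∧ y' ^ p = 1 ∧ y ≠ 1 ∧ y.1 v = v ∧ y'.1 v ≠ v := by
  have : Finite W := Module.finite_of_finite F
  have : Finite (H12.O Q) := Finite.of_injective (fun g => (g.1 : W → W))
    fun _ _ e => O.ext (congrFun e)
  obtain ⟨a, b, h⟩ := h
  obtain ⟨A, h1, h2, h3⟩ := exists_of_pair hp.out h
  let φ : A →* MulAut (Multiplicative W) :=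
    ⟨⟨fun g => AddEquiv.toMultiplicative g.1.1.toAddEquiv, rfl⟩, fun _ _ => rfl⟩
  by_contra! e
  have h4 := H2.ext_le_of_forall_fix_le (φ := φ) (K := ⊤) (M := H2.fixSub φ ⊤) h1 h2
    (fun _ _ _ => trivial) (by
      obtain ⟨k, hk⟩ := IsPGroup.iff_card.1 (show IsPGroup p A from
        fun x => ⟨1, Subtype.ext (by simpa using h3 x x.2)⟩)
      have := Fintype.ofFinite F
      rw [hk, card_top, Nat.card_congr Multiplicative.toAdd, Module.natCard_eq_pow_finrank (K := F)]
      refine Nat.Coprime.pow _ _ (hp.out.coprime_iff_not_dvd.2 fun ⟨c, hc⟩ => hpF ?_)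
      have := FiniteField.cast_card_eq_zero F
      obtain ⟨r, _, n, hr, hn⟩ := FiniteField.card' F
      rw [Nat.card_eq_fintype_card, hn] at hc
      rw [(Nat.prime_dvd_prime_iff_eq hp.out hr).1 (hp.out.dvd_of_dvd_pow ⟨c, hc⟩)]
      exact CharP.cast_eq_zero F r)
    fun y hy v _ hv y' _ => e y y' v (congrArg Subtype.val (h1.is_comm.comm y' y)) (h3 _ y.2)
      (h3 _ y'.2) (fun k => hy (Subtype.ext k)) hv
  have : Subsingleton A := ⟨fun x y => Subtype.ext (O.ext fun v =>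
    (h4 (mem_top (Multiplicative.ofAdd v)) x trivial).trans (h4 (mem_top _) y trivial).symm)⟩
  exact h2 inferInstance

theorem exists_big (hpF : (p : F) ≠ 0) (h7 : 7 ≤ finrank F W) (h : Rk2 p (H12.O Q)) :
    ∃ z : H12.O Q, z ^ p = 1 ∧ z ≠ 1 ∧ 4 ≤ finrank F (fixS z) := by
  obtain ⟨z, y, v0, hc, hz, hy, z1, z2, y2⟩ := exists_moved hpF h
  by_cases h4 : 4 ≤ finrank F (fixS z)
  · exact ⟨z, hz, z1, h4⟩
  let e : W →ₗ[F] W := (p : F)⁻¹ • ∑ k ∈ Finset.range p, (z.1 : W →ₗ[F] W) ^ k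
  have e0 : ∀ v, e v = (p : F)⁻¹ • ∑ k ∈ Finset.range p, (z ^ k).1 v := fun v => by
    simp [e, LinO.coe_pow]
  have zp : (z.1 : W →ₗ[F] W) ^ p = 1 := LinearMap.ext fun v => by rw [LinO.coe_pow, hz]; rfl
  have e1 : ∀ v, e v ∈ fixS z := fun v => by
    have := congrArg (fun f => (p : F)⁻¹ • f v) (mul_geom_sum (z.1 : W →ₗ[F] W) p)
    simpa [zp, mem_fixS, e, sub_eq_zero, smul_sub] using this
  have fx : ∀ d ∈ fixS z, ∀ k : ℕ, (z ^ k).1 d = d := fun d hd k =>
    ((MulAction.stabilizer (W ≃ₗ[F] W) d).comap (H12.O Q).subtype).pow_mem (x := z) hd k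
  have e3 : ∀ d ∈ fixS z, e d = d := fun d hd => by
    simp only [e0, fx d hd]
    simp [← Nat.cast_smul_eq_nsmul F, smul_smul, hpF]
  have e4 : ∀ d ∈ fixS z, ∀ v, polar Q d (v - e v) = 0 := fun d hd v => by
    have : ∀ k : ℕ, polar Q d ((z ^ k).1 v) = polar Q d v := fun k => by
      rw [← O.map_B (z ^ k) d v, fx d hd]
    simp only [polar_sub_right, e0, B_smul_right, B_sum_right, this]
    simp [hpF]
  have e5 : ∀ c : H12.O Q, Commute c z → ∀ v, c.1 (e v) ∈ fixS z := fun c h v =>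
    (congrArg (fun g : H12.O Q => g.1 (e v)) h.eq).symm.trans (congrArg _ (e1 v))
  let x : H12.O Q → W →ₗ[F] W := fun c => c.1 ∘ₗ e + (1 - e)
  have x0 : ∀ c v, x c v = c.1 (e v) + (v - e v) := fun c v => rfl
  have x1 : ∀ c d v, Commute d z → x c (x d v) = x (c * d) v := fun c d v h => by
    have : e (x d v) = d.1 (e v) := by
      rw [x0, map_add, map_sub, e3 _ (e1 v), sub_self, add_zero, e3 _ (e5 d h v)]
    rw [x0, this, x0, x0, add_sub_cancel_left]; rfl
  have x2 : ∀ v, x 1 v = v := fun v => by simp [x0, O.one_apply]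
  let t := mkO Q (x y) (x y⁻¹) (fun v => by
      rw [x0, Q_add, e4 _ (e5 y hc v), O.map_Q, ← e4 _ (e1 v) v, ← Q_add, add_sub_cancel])
    (fun v => by rw [x1 _ _ _ hc.inv_left, mul_inv_cancel, x2])
    fun v => by rw [x1 _ _ _ hc, inv_mul_cancel, x2]
  have t1 : ∀ (k : ℕ) v, (t ^ k).1 v = x (y ^ k) v := fun k => by
    induction k with
    | zero => exact fun v => (x2 v).symm
    | succ k ih => exact fun v => by rw [pow_succ, pow_succ, O.mul_apply, ih, ← x1 _ _ _ hc]; rfl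
  refine ⟨t, O.ext fun v => by rw [t1, hy, x2]; rfl, fun k => y2 ?_, ?_⟩
  · have : x y v0 = v0 := congrArg (fun g : H12.O Q => g.1 v0) k
    rwa [x0, e3 _ z2, sub_self, add_zero] at this
  · have h1 : finrank F (LinearMap.ker e) ≤ finrank F (fixS t) := Submodule.finrank_mono fun v hv =>
      show x y v = v by rw [x0, LinearMap.mem_ker.1 hv]; simp
    have h2 : finrank F (LinearMap.range e) ≤ finrank F (fixS z) :=
      Submodule.finrank_mono (by rintro _ ⟨v, rfl⟩; exact e1 v)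
    have := e.finrank_range_add_finrank_ker
    omega

theorem exists_comm (hQ : Nondeg Q) (hpF : (p : F) ≠ 0) {z : H12.O Q} (hz : z ^ p = 1)
    (h4 : 4 ≤ finrank F (fixS z)) {r : ℕ} (hr : r = 2 ∨ r = 3) : (∃ v, v ≠ 0 ∧ z.1 v = v) ∧
      ∃ x ∈ Om Q, Commute z x ∧ x ^ r = 1 ∧ x ≠ 1 ∧ ∃ v, v ≠ 0 ∧ x.1 v = v := by
  have h1 := (LinO.fix_data hQ hpF hz).1
  obtain ⟨e, f, h⟩ := h1.exists_hyp_of_three_le (by omega)
  obtain ⟨w, hw, hc⟩ := h.exists_perp_Q_ne h1 (by omega)
  obtain ⟨w', hw', h2⟩ := h.exists_B_eq h1 hw (ne_zero_of_Q_ne hc) 1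
  refine ⟨⟨e, fun k => h.e_ne (Subtype.ext k), e.2⟩, ?_⟩
  have key : ∀ u : fixS z, Q u = Q w → (refl Q u * refl Q w) ^ r = 1 → polar Q (f : W) u = 1 →
      ∃ x ∈ Om Q, Commute z x ∧ x ^ r = 1 ∧ x ≠ 1 ∧ ∃ v, v ≠ 0 ∧ x.1 v = v := fun u k1 k2 k3 => by
    have c : ∀ u : fixS z, Commute z (refl Q (u : W)) := fun u =>
      mul_inv_eq_iff_eq_mul.1 ((refl_conj z u).trans (congrArg _ u.2))
    obtain ⟨v, v0, v1, v2⟩ := exists_orth_ne_zero Q (u : W) w
      (le_trans (by omega) (Submodule.finrank_le (fixS z)))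
    refine ⟨_, refl_mul_refl_mem_Om hQ hc one_ne_zero (by simpa using k1), (c u).mul_right (c w), k2,
      fun k => ?_, v, v0, by rw [O.mul_apply, refl_apply_of_orth ((polar_comm ..).trans v2),
        refl_apply_of_orth ((polar_comm ..).trans v1)]⟩
    have := congrArg (fun g : H12.O Q => g.1 f) k
    simp only [O.mul_apply, O.one_apply] at this
    rw [refl_apply_of_orth (v := (w : W)) hw.2, refl_apply, k3, sub_eq_self, mul_one, smul_eq_zero,
      inv_eq_zero] at this
    exact hc (k1.symm.trans (this.elim id fun e => by simp [e]))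
  rcases hr with rfl | rfl
  · let u := (1 : F) • e + Q w • f
    refine key u ((h.Q_comb _ _).trans (one_mul _)) ?_ 
      (by have := h.B_f_comb 1 (Q w) (zero_mem _); rwa [add_zero] at this)
    have : polar Q (w : W) u = 0 := by
      simp only [u, Submodule.coe_add, Submodule.coe_smul, polar_add_right, B_smul_right]
      rw [polar_comm, show polar Q (e : W) w = 0 from hw.1, polar_comm,
        show polar Q (f : W) w = 0 from hw.2]
      simp
    have k := refl_conj (refl Q (u : W)) (w : W)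
    rw [refl_apply_of_orth this, refl_inv] at k
    rw [pow_two, ← mul_assoc, k, refl_mul_self]
  · let u := (1 : F) • e + (Q w - Q w ^ 2 * Q w') • f + (-Q w) • w'
    have k1 : Q u = Q w := (h.Q_comb' _ _ (Submodule.smul_mem _ _ hw')).trans (by
      rw [Q_smul]; change _ + _ * Q w' = _; ring)
    have k2 : polar Q (w : W) u = -Q w := by
      simp only [u, Submodule.coe_add, Submodule.coe_smul, polar_add_right, B_smul_right]
      rw [show polar Q (w : W) w' = 1 from h2, polar_comm, show polar Q (e : W) w = 0 from hw.1,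
        polar_comm, show polar Q (f : W) w = 0 from hw.2]
      simp
    refine key u k1 ?_ (h.B_f_comb _ _ (Submodule.smul_mem _ _ hw'))
    have k3 := refl_conj (refl Q (u : W)) (w : W)
    have k4 := refl_conj (refl Q (w : W)) (u : W)
    have hc' : Q w ≠ 0 := hc
    rw [refl_inv, refl_apply, k1, k2, mul_neg, inv_mul_cancel₀ hc', neg_smul, one_smul,
      sub_neg_eq_add] at k3
    rw [refl_inv, refl_apply, polar_comm, k2, mul_neg, inv_mul_cancel₀ hc', neg_smul, one_smul,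
      sub_neg_eq_add, add_comm, ← k3] at k4
    rw [show (refl Q (u : W) * refl Q w) ^ 3 = refl Q u * refl Q w * refl Q u *
      (refl Q w * refl Q u * refl Q w) by simp only [pow_succ, pow_zero, one_mul, mul_assoc], k4, k3,
      refl_mul_self]

end Orth

variable {F : Type} [Field F] [Fintype F]

theorem pr_orth {ι : Type} [Fintype ι] [DecidableEq ι] {Q : QuadraticForm F (ι → F)}
    (hQ : H12.Nondeg Q) (h7 : 7 ≤ Fintype.card ι) {r s : ℕ} (hs : s.Prime) (h2 : s ≠ 2)
    (hF : (s : F) ≠ 0) (h : Rk2 s (Geo.omegaGL Q)) (hr : r = 2 ∨ r = 3) :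
    Pr (Geo.omegaGL Q) s r := by
  classical
  have := Fact.mk hs
  have hi : Function.Injective (oGL Q) := fun a b e => O.ext fun v => by
    rw [← oGL_mulVec, e, oGL_mulVec]
  obtain ⟨z, h1, h3, h4⟩ := Orth.exists_big (Q := Q) hF (by simpa using h7)
    (h.map ((H12.isoEquiv Q fun _ => rfl).toMonoidHom.comp (inclusion (map_subtype_le _)))
      fun a b e => inclusion_injective _ ((H12.isoEquiv Q fun _ => rfl).injective e))
  obtain ⟨⟨v, h5, h6⟩, x, h8, h9, k1, k2, u, k3, k4⟩ := Orth.exists_comm hQ hF h1 h4 hr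
  have k : ∀ f : H12.O Q →* ℤˣ, f z = 1 := fun f => by
    have := congrArg f h1
    rwa [map_pow, map_one, Int.units_pow_eq_pow_mod_two, Nat.odd_iff.1 (hs.odd_of_ne_two h2),
      pow_one] at this
  exact ⟨_, oGL_mem_omega.2 ((mem_Om_iff hQ (good_of_five hQ (by omega)) z).2 ⟨k _, k _⟩), _,
    oGL_mem_omega.2 h8, h9.map _,
    ⟨by rw [← map_pow, h1, map_one], mt (map_eq_one_iff _ hi).1 h3, v, h5, (oGL_mulVec _ _).trans h6⟩,
    by rw [← map_pow, k1, map_one], mt (map_eq_one_iff _ hi).1 k2, u, k3, (oGL_mulVec _ _).trans k4⟩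

end H67.PA
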