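import Cfsg.Agent.Lib.PAdj.Defs
import Cfsg.Agent.Lib.Core.CoprimeAbelian

/-! The reduction to the property `Fam` of the socle. -/

set_option autoImplicit false
set_option linter.unusedSectionVars false

namespace H67.PA

open Subgroup Cfsg H38.PQ H67.SB
open scoped commutatorElement

variable {G : Type*} [Group G] [Finite G] {r s : ℕ}

theorem exists_cand (h : ¬ IsCyclic G) : ∃ r, r.Prime ∧ Cand r G := by
  by_cases hZ : IsZGroup G
  · have h1 : Nat.card (commutator G) ≠ 1 := fun e => h (isCyclic_of_injective Abelianization.of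
      ((MonoidHom.ker_eq_bot_iff _).1 ((Abelianization.ker_of G).trans (card_eq_one.1 e))))
    refine ⟨_, Nat.minFac_prime h1, fun N _ _ => (Nat.minFac_dvd _).trans (card_dvd_of_le ?_),
      fun e => ?_⟩
    · let _ := IsCyclic.commGroup (α := G ⧸ N)
      simpa using Abelianization.commutator_subset_ker (QuotientGroup.mk' N)
    · have := Fact.mk Nat.prime_two
      have h2 : 2 ∣ Nat.card (commutator G) := e ▸ Nat.minFac_dvd _
      obtain ⟨P⟩ : Nonempty (Sylow 2 G) := inferInstance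
      have h3 := IsCyclic.normalizer_le_centralizer (P := P)
        ((Nat.minFac_eq_two_iff _).2 (h2.trans (card_subgroup_dvd_card _))) inferInstance
      let _ := IsCyclic.commGroup (α := P)
      exact absurd (h2.trans (card_dvd_of_le (Abelianization.commutator_subset_ker _)))
        (MonoidHom.not_dvd_card_ker_transferSylow P h3)
  · obtain ⟨r, hr, P, hP⟩ : ∃ r, r.Prime ∧ ∃ P : Sylow r G, ¬ IsCyclic P := by
      by_contra! e
      exact hZ ⟨e⟩
    exact ⟨r, hr, fun N _ _ => by_contra fun e => hP (cyclic_of_ker (QuotientGroup.mk' N) hr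
      (by rwa [QuotientGroup.ker_mk']) _ P.isPGroup'), by rintro rfl; exact ⟨P, P.isPGroup', hP⟩⟩

theorem Cand.dvd_card (h : Cand r G) : r ∣ Nat.card G := by
  simpa using h.hom (MonoidHom.id G) Function.surjective_id (1 : G →* Unit)

theorem ord_of_cent (hr : r.Prime) (hs : s.Prime) (h : s ≠ r) {V : Subgroup G}
    (hV : s ∣ Nat.card V) (hC : r ∣ Nat.card (centralizer (V : Set G))) : Ord G (r * s) := by
  have := Fact.mk hr
  have := Fact.mk hs
  obtain ⟨x, hx⟩ := exists_prime_orderOf_dvd_card' r hC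
  obtain ⟨y, hy⟩ := exists_prime_orderOf_dvd_card' s hV
  exact Ord.of_commute hr hs h.symm (x := x) (y := y) (x.2 y y.2).symm (by simp [hx]) (by simp [hy])

theorem Ord.of_surj {G' : Type*} [Group G'] {n : ℕ} (h : Ord G' n) (f : G →* G')
    (hf : Function.Surjective f) : Ord G n := by
  obtain ⟨g, rfl⟩ := h
  obtain ⟨g, rfl⟩ := hf g
  exact Ord.of_dvd (orderOf_map_dvd f g)

variable {N : Subgroup G} [N.Normal]

/-- Odd primes with cyclic Sylow subgroups in the socle. -/
theorem ord_of_frattini (hr : r.Prime) (hs : s.Prime) (h : s ≠ r) (h2 : s ≠ 2) (hc : Cand r (G ⧸ N))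
    (hd : s ∣ Nat.card N) (hn : ¬ Rk2 s N) : Ord G (r * s) := by
  have := Fact.mk hs
  obtain ⟨P⟩ : Nonempty (Sylow s N) := inferInstance
  have : IsCyclic P := by_contra fun e => hn (Rk2.of_nc hs h2 P.isPGroup' e)
  let V := (P : Subgroup N).map N.subtype
  have e := (P : Subgroup N).equivMapOfInjective _ N.subtype_injective
  have : IsCyclic V := e.isCyclic.1 this
  obtain ⟨k, hk⟩ := IsPGroup.iff_card.1 (P.isPGroup'.map N.subtype)
  have : IsCyclic (MulAut V) :=
    (IsCyclic.mulAutMulEquiv V).isCyclic.2 (hk ▸ ZMod.isCyclic_units_of_prime_pow s hs h2 k)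
  refine ord_of_cent hr hs h (V := V) (Nat.card_congr e.toEquiv ▸ P.dvd_card_of_dvd_card hd)
    ((hc.hom ((QuotientGroup.mk' N).comp (normalizer (V : Set G)).subtype) (fun x => ?_)
      V.normalizerMonoidHom).trans ?_)
  · obtain ⟨x, rfl⟩ := QuotientGroup.mk_surjective x
    obtain ⟨y, hy, n, hn, rfl⟩ := mem_sup_of_normal_right.1 (P.normalizer_sup_eq_top.ge (mem_top x))
    exact ⟨⟨y, hy⟩, by simp [(QuotientGroup.eq_one_iff n).2 hn]⟩
  · rw [normalizerMonoidHom_ker]
    exact card_comap_dvd_of_injective _ _ (subtype_injective _)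

/-- The almost simple case. -/
theorem ord_bar (hC : centralizer (N : Set G) = ⊥) (hF : Fam N) (hr : r.Prime)
    (hc : Cand r (G ⧸ N)) :
    r ∣ Nat.card N ∧ ∀ s, s.Prime → s ∣ Nat.card G → s ≠ r → Ord G (r * s) := by
  let α : G →* MulAut N := MulAut.conjNormal
  have h1 : ∀ g, α g = 1 → g = 1 := fun g e => mem_bot.1 (hC ▸ fun n hn => by
    exact (mul_inv_eq_iff_eq_mul.1 (congrArg (fun f : MulAut N => (f ⟨n, hn⟩ : G)) e)).symm)
  have h2 : Inn N ≤ α.range := by
    rintro _ ⟨n, rfl⟩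
    exact ⟨n, MulAut.conjNormal_val⟩
  have h3 : N = ((QuotientGroup.mk' (Inn N)).comp α).ker := Subgroup.ext fun g => by
    rw [MonoidHom.mem_ker, MonoidHom.comp_apply, QuotientGroup.mk'_apply, QuotientGroup.eq_one_iff]
    refine ⟨fun hg => ⟨⟨g, hg⟩, MulAut.conjNormal_val.symm⟩, fun ⟨n, hn⟩ => ?_⟩
    rw [← inv_mul_eq_one.1 (h1 ((n : G)⁻¹ * g) (by
      rw [map_mul, map_inv, ← hn, inv_mul_eq_one]; exact MulAut.conjNormal_val))]
    exact n.2
  have e : (G ⧸ N) ≃* O α.range := (QuotientGroup.quotientMulEquivOfEq h3).trans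
    ((QuotientGroup.quotientKerEquivRange _).trans (MulEquiv.subgroupCongr (MonoidHom.range_comp _ _)))
  obtain ⟨h4, h5⟩ := hF _ h2 r hr (hc.congr e.symm)
  refine ⟨h4, fun s hs h6 h7 => ?_⟩
  have h8 := fun k => Ord.of_surj (h5 s hs h7 k) _ α.rangeRestrict_surjective
  by_cases hd : s ∣ Nat.card N
  · by_cases e2 : s = 2
    · exact h8 (.inr (.inr e2))
    by_cases e3 : Rk2 s N
    · exact h8 (.inr (.inl e3))
    · exact ord_of_frattini hr hs h7 e2 hc hd e3
  · rw [card_eq_card_quotient_mul_card_subgroup N, Nat.card_congr e.toEquiv] at h6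
    exact h8 (.inl ⟨((Nat.Prime.dvd_mul hs).1 h6).resolve_right hd, hd⟩)

theorem not_cyclic_sylow (hr : r.Prime) (hN : ⁅N, N⁆ = N) (h1 : r ∣ Nat.card N)
    (h2 : r ∣ Nat.card (G ⧸ N)) : ∃ T : Subgroup G, IsPGroup r T ∧ ¬ IsCyclic T := by
  have := Fact.mk hr
  obtain ⟨x, hx⟩ := exists_prime_orderOf_dvd_card' r h2
  let X := (zpowers x).comap (QuotientGroup.mk' N)
  obtain ⟨P⟩ : Nonempty (Sylow r X) := inferInstance
  refine ⟨_, P.isPGroup'.map X.subtype, fun h => ?_⟩
  have := ((P : Subgroup X).equivMapOfInjective _ X.subtype_injective).isCyclic.2 h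
  have h3 : N ≤ X := fun n hn => by
    change (n : G ⧸ N) ∈ zpowers x
    rw [(QuotientGroup.eq_one_iff n).2 hn]; exact one_mem _
  rcases P.not_dvd_card_commutator_or_not_dvd_index_commutator with e | e
  · refine e (h1.trans ?_)
    rw [← card_map_of_injective X.subtype_injective, map_subtype_commutator]
    exact card_dvd_of_le (hN.ge.trans (commutator_mono h3 h3))
  · let _ := IsCyclic.commGroup (α := zpowers x)
    refine e (Dvd.dvd.trans ?_ (index_dvd_of_le (Abelianization.commutator_subset_ker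
      ((QuotientGroup.mk' N).subgroupComap (zpowers x)))))
    rw [index_ker, MonoidHom.range_eq_top.2 (MonoidHom.subgroupComap_surjective_of_surjective _ _
      (QuotientGroup.mk'_surjective N)), card_top, Nat.card_zpowers, hx]

omit [N.Normal] in
theorem ord_of_rk2 (hr : r.Prime) (hs : s.Prime) (h : s ≠ r) {V : Subgroup G} [V.Normal]
    (hV : IsPGroup s V) (h0 : V ≠ ⊥) (h2 : Rk2 r G) : Ord G (r * s) := by
  have := Fact.mk hr
  have := Fact.mk hs
  obtain ⟨a, b, h2⟩ := h2
  obtain ⟨A, h3, h4, h5⟩ := exists_of_pair hr h2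
  by_contra hn
  refine h0 (le_bot_iff.1 (H2.le_of_forall_centralizer_le h3 h4 (by simp [normalizer_eq_top])
    (IsPGroup.coprime_card_of_ne r s h.symm _ _
      (fun x => ⟨1, Subtype.ext (by simpa using h5 x x.2)⟩) hV) fun a ha h6 v hv => by_contra fun e => ?_))
  obtain ⟨k, hk⟩ := hV.exists_orderOf_eq_pow ⟨v, hv.1⟩
  rw [← orderOf_coe] at hk
  refine hn (Ord.of_commute hr hs h.symm (x := a) (y := v) (mem_centralizer_singleton_iff.1 hv.2).symm
    (orderOf_eq_prime (h5 a ha) h6).symm.dvd (hk ▸ dvd_pow_self s ?_))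
  rintro rfl
  exact e (orderOf_eq_one_iff.1 hk)

/-- The prime two: an involution inverting `V` is central modulo the centraliser of `V`. -/
theorem ord_two (hs : s.Prime) (h : s ≠ 2) {K V : Subgroup G} [K.Normal] [V.Normal]
    (hV : IsPGroup s V) (hd : s ∣ Nat.card V) (hK : 2 ∣ Nat.card K → Ord G (2 * s))
    {N : Subgroup (G ⧸ K)} [N.Normal] [IsSimpleGroup N] (hC : centralizer (N : Set (G ⧸ K)) = ⊥)
    (h2 : 2 ∣ Nat.card N) : Ord G (2 * s) := by
  have := Fact.mk hs
  have := Fact.mk Nat.prime_two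
  by_contra hn
  let C := centralizer (V : Set G)
  have h1 : C.map (QuotientGroup.mk' K) = ⊥ := by
    have := Normal.map (inferInstance : C.Normal) _ (QuotientGroup.mk'_surjective K)
    rcases IsSimpleGroup.eq_bot_or_eq_top_of_normal ((C.map (QuotientGroup.mk' K)).subgroupOf N)
      inferInstance with e | e
    · exact eq_bot_iff.2 (hC ▸ fun x hx n hn => (commute_of_normal_of_disjoint _ _ inferInstance
        inferInstance (subgroupOf_eq_bot.1 e) x n hx hn).symm)
    · exact absurd (ord_of_cent Nat.prime_two hs h hd ((h2.trans (card_dvd_of_le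
        (subgroupOf_eq_top.1 e))).trans (card_dvd_of_surjective _ (MonoidHom.subgroupMap_surjective _ _)))) hn
  have h3 : ∀ z : G, orderOf z = 2 → ∀ v : V, z * v * z⁻¹ = v⁻¹ := fun z hz v => by
    have h4 := MonoidHom.FixedPointFree.coe_eq_inv_of_sq_eq_one
      (φ := (MulAut.conjNormal z : MulAut V)) (fun v e => by_contra fun e' => ?_) (by
        refine funext fun v => (MulAut.mul_apply _ _ _ v).symm.trans ?_
        rw [← map_mul, ← sq, ← hz, pow_orderOf_eq_one, map_one]; rfl)
    · exact congrArg Subtype.val (congrFun h4 v)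
    obtain ⟨k, hk⟩ := hV.exists_orderOf_eq_pow v
    refine hn (Ord.of_commute Nat.prime_two hs h.symm (x := z) (y := v)
      (mul_inv_eq_iff_eq_mul.1 (congrArg Subtype.val e)) hz.symm.dvd (by
        rw [orderOf_coe, hk]
        exact dvd_pow_self s (by rintro rfl; exact e' (orderOf_eq_one_iff.1 hk))))
  obtain ⟨z, hz⟩ := exists_prime_orderOf_dvd_card' (G := G) 2
    ((h2.trans (card_subgroup_dvd_card N)).trans (card_quotient_dvd_card K))
  refine hn (hK (hz ▸ K.orderOf_dvd_natCard ((QuotientGroup.eq_one_iff z).1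
    (mem_bot.1 (hC ▸ fun x _ => ?_)))))
  obtain ⟨g, rfl⟩ := QuotientGroup.mk_surjective x
  have h5 : z⁻¹ * (g * z * g⁻¹) ∈ C := fun v hv => by
    have := (h3 z hz ⟨v, hv⟩).trans (h3 (g * z * g⁻¹) (hz ▸ orderOf_injective
      (MulAut.conj g).toMonoidHom (MulAut.conj g).injective z) ⟨v, hv⟩).symm
    rw [show v * (z⁻¹ * (g * z * g⁻¹)) = z⁻¹ * (z * v * z⁻¹) * (g * z * g⁻¹) by group, this]
    group
  have h6 := mem_bot.1 (h1.le ⟨_, h5, rfl⟩)
  rw [map_mul, map_inv, inv_mul_eq_one, map_mul, map_mul, map_inv, eq_mul_inv_iff_mul_eq] at h6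
  exact h6.symm

theorem red (K H : Subgroup G) [K.Normal] [H.Normal] (hKH : K ≤ H) (hK : Group.IsNilpotent K)
    (hS : IsSimpleGroup (H ⧸ K.subgroupOf H))
    (hF : center (H ⧸ K.subgroupOf H) = ⊥ → Fam (H ⧸ K.subgroupOf H))
    (hC : centralizer ((H.map (QuotientGroup.mk' K) : Subgroup (G ⧸ K)) : Set (G ⧸ K)) = ⊥)
    (hnc : ¬ IsCyclic (G ⧸ H)) : ∃ r : ℕ, r.Prime ∧ r ∣ Nat.card (G ⧸ H) ∧
      ∀ s : ℕ, s.Prime → s ∣ Nat.card G → s ≠ r → ∃ g : G, orderOf g = r * s := by
  obtain ⟨r, hr, hc⟩ := exists_cand hnc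
  have := Fact.mk hr
  let N := H.map (QuotientGroup.mk' K)
  have e1 : (H ⧸ K.subgroupOf H) ≃* N := (QuotientGroup.quotientMulEquivOfEq (by
    rw [MonoidHom.ker_domRestrict, QuotientGroup.ker_mk'])).trans
      ((QuotientGroup.quotientKerEquivRange ((QuotientGroup.mk' K).domRestrict H)).trans
        (MulEquiv.subgroupCongr (MonoidHom.domRestrict_range _ _)))
  have e2 := QuotientGroup.quotientQuotientEquivQuotient K H hKH
  have : IsSimpleGroup N := e1.symm.isSimpleGroup
  have h1 : center N = ⊥ := eq_bot_iff.2 fun x hx => Subtype.ext (mem_bot.1 (hC ▸ fun n hn =>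
    congrArg Subtype.val (mem_center_iff.1 hx ⟨n, hn⟩)))
  obtain ⟨h2, h3⟩ := ord_bar hC ((hF (eq_bot_iff.2 fun g hg => e1.map_eq_one_iff.1 (mem_bot.1
    (h1 ▸ mem_center_iff.2 fun x => e1.symm.injective (by
      simpa using mem_center_iff.1 hg (e1.symm x)))))).congr e1.symm) hr (hc.congr e2)
  refine ⟨r, hr, hc.dvd_card, fun s hs h4 h5 => ?_⟩
  have := Fact.mk hs
  rw [card_eq_card_quotient_mul_card_subgroup K, hs.dvd_mul] at h4
  refine h4.elim (fun h4 => Ord.of_surj (h3 s hs h4 h5) _ (QuotientGroup.mk'_surjective K)) fun h4 => ?_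
  obtain ⟨P⟩ : Nonempty (Sylow s K) := inferInstance
  have : (P : Subgroup K).Normal := inferInstance
  have := P.characteristic_of_normal this
  have h6 : s ∣ Nat.card ((P : Subgroup K).map K.subtype) := by
    rw [card_map_of_injective K.subtype_injective]; exact P.dvd_card_of_dvd_card h4
  by_cases e : r = 2
  · subst e
    refine ord_two hs h5 (P.isPGroup'.map K.subtype) h6 (fun h7 => ?_) hC h2
    obtain ⟨Q⟩ : Nonempty (Sylow 2 K) := inferInstance
    refine (ord_of_cent Nat.prime_two hs h5 (P.dvd_card_of_dvd_card h4)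
      ((Q.dvd_card_of_dvd_card h7).trans (card_dvd_of_le fun x hx y hy => ?_))).of_injective _
        K.subtype_injective
    exact commute_of_normal_of_disjoint _ _ inferInstance inferInstance
      (IsPGroup.disjoint_of_ne s 2 h5 _ _ P.isPGroup' Q.isPGroup') y x hy hx
  obtain ⟨T, h7, h8⟩ := not_cyclic_sylow (N := N) hr (by
    rw [← map_subtype_commutator]
    rcases IsSimpleGroup.eq_bot_or_eq_top_of_normal (commutator N) inferInstance with e | e
    · exact absurd (h1 ▸ (commutator_eq_bot_iff_center_eq_top N).1 e) bot_ne_top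
    · rw [e, ← MonoidHom.range_eq_map, range_subtype]) h2 (hc.congr e2).dvd_card
  exact ord_of_rk2 hr hs h5 (P.isPGroup'.map K.subtype) (fun e => hs.not_dvd_one (by simpa [e] using h6))
    ((Rk2.of_nc hr e h7 h8).of_surj hr e _ (QuotientGroup.mk'_surjective K))

end H67.PA
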