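import Cfsg.Agent.Lib.PAdj.Dim
import Cfsg.Agent.Lib.PQA.Uni

/-! The adjacency statement for unitary and symplectic groups. -/

set_option autoImplicit false
set_option linter.unusedSectionVars false
set_option linter.style.haveILetI false

namespace H67.PA

open Cfsg Cfsg.Agent Subgroup H38.PQ H65.XS Matrix H63.Emb H67 H61.KG H11.U

variable {F : Type} [Field F] [Fintype F]

theorem fam_psu {n q : ℕ} (hF : Fintype.card F = q ^ 2) (hn : 3 ≤ n) (h32 : ¬ (n = 3 ∧ q = 2)) :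
    Fam (PSU n F q) := by
  haveI : IsSq F q := ⟨hF⟩
  obtain ⟨p, f, hp, _, hq, hf⟩ := exists_char_pow F q
  haveI := Fact.mk hp
  obtain ⟨hZ, hS⟩ := center_psu (F := F) (q := q) hn
  have hw := w_neg_one (two_le_q F q)
  have hQ : ∀ s : ℕ, (s : ℤ) ∣ -q → s ∣ q := fun s k => Int.natCast_dvd_natCast.1 (Int.dvd_neg.1 k)
  have hle : Inn (PSU n F q) ≤ (psuInn n F q).range := inn_psu_eq.le.trans (map_le_range _ _)
  have hc : Nat.card F = p ^ (2 * f) := by
    rw [Nat.card_eq_fintype_card, hF, hq, ← pow_mul, mul_comm]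
  have := normal_range_psuInn (F := F) hn h32
  obtain ⟨π, hπ, -⟩ := exists_proj (psuInn n F q).range (psuField n F q) (psu_aut' hn h32)
    fun r => psuField_mem_range hn
  have key : ∀ σ : RingAut F, Odd (orderOf σ) → ∀ r, r.Prime → r ≤ n → Fx (psuField n F q σ) r :=
    fun σ ho r hr k => (fe_SU hn ho hr (Or.inr k)).fx suJ_inj hZ hr _
  have hle' : ∀ r, r ∣ Nat.gcd n (q + 1) → r ≤ n := fun r k =>
    Nat.le_of_dvd (by omega) (k.trans (Nat.gcd_dvd_left _ _))
  refine fam_of (· ∣ Nat.gcd n (q + 1)) hS (QuotientGroup.lift _ π (hπ ▸ hle)) (fun r _ k => ?_)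
    (fun r hr k => Fx.dvd (key 1 (by simp) r hr (hle' r k))) (fun t ht h e => ?_)
    fun H hH r s hr hs hsr k hC h => ?_
  · rwa [QuotientGroup.ker_lift, ← relIndex_ker, QuotientGroup.ker_mk', hπ, relIndex_inn_psu hn] at k
  · obtain ⟨σ, hσ⟩ := exists_aut_ord hc ht
      (card_ringAut hc ▸ e.trans (card_subgroup_dvd_card _))
    exact ⟨psuField n F q σ, hσ ▸ dvd_orderOf_of_hom _ (fun σ k => psuField_mem_range hn (hle k)) σ,
      fun r hr k => key σ (hσ ▸ ht.odd_of_ne_two fun e =>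
        h (e ▸ Fx.dvd (key 1 (by simp) 2 Nat.prime_two (by omega)))) r hr (hle' r k)⟩
  have hD : ∀ a, n ≤ 2 * a + 1 → DD q (-q) a s := fun a ha => by
    by_cases h2 : s = 2
    · exact dd_of_le hs (hQ s) (Or.inr (by omega))
    by_cases h3 : s ∣ q
    · exact Or.inl h3
    haveI := Fact.mk hs
    obtain ⟨e, k1, k2, k3⟩ := dim_U hF h3 (Rk2.of_surj hs h2 (QuotientGroup.mk' _)
      (QuotientGroup.mk'_surjective _) (h.resolve_right h2))
    exact Or.inr ⟨e, k1, by omega, k2⟩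
  rcases hn.eq_or_lt with rfl | hn'
  · obtain rfl : r = 3 :=
      (Nat.prime_dvd_prime_iff_eq hr Nat.prime_three).1 (k.trans (Nat.gcd_dvd_left _ _))
    obtain ⟨a, a1, a2, a3⟩ := hC.exists hr hH (QuotientGroup.lift _ π (hπ ▸ hle))
    have hDH := le_of_relIndex hH hr hle (by rw [relIndex_inn_psu hn]; exact Nat.gcd_dvd_left _ _)
      a1 (hπ ▸ a3) a2
    let d : normOne F q →* GU 3 F q := (dg.comp (normOne F q).subtype).codRestrict _ fun c =>
      block_GU _ _ ((scalar_mem_GU le_rfl).2 c.2)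
    haveI := Fact.mk hr
    obtain ⟨c, hc3⟩ := exists_prime_orderOf_dvd_card' (G := normOne F q) 3
      (by rw [card_normOne]; exact k.trans (Nat.gcd_dvd_right _ _))
    obtain ⟨x, hx, k5, k6⟩ := exists_el hs (dvd_SU (F := F) le_rfl (hD 2 (by omega)))
    obtain ⟨g, hg⟩ := block_SU (finSumFinEquiv (m := 2) (n := 1)) x hx
    refine ord_of_fix hS hH hs hr hsr.symm (hDH ⟨d c, rfl⟩) ?_
      ⟨g, indAut_mk suJ_inj _ (by rw [hg]; exact (dg_conj c.1 x).symm),
        El.ord hZ hs (hg ▸ el_block _ k5 k6)⟩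
    exact (hc3.symm.trans (orderOf_injective ((psuInn 3 F q).comp d)
      ((injective_iff_map_eq_one _).2 fun c k =>
        Subtype.ext (dg_center ((psuInn_eq_one_iff hn).1 k))) c).symm).dvd
  · obtain ⟨b, hb⟩ : ∃ b, n = n / 2 + b := ⟨n - n / 2, by omega⟩
    have : Nonempty (Fin (n / 2)) := ⟨⟨0, by omega⟩⟩
    have : Nonempty (Fin b) := ⟨⟨0, by omega⟩⟩
    exact ((pr_blocks hr hs (finSumFinEquiv.trans (finCongr hb.symm)) (block_SU _) (block_SU _)
      (dvd_SU (by omega) (Or.inr ⟨1, one_pos, by omega, hw ▸ k.trans (Nat.gcd_dvd_right _ _)⟩))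
      (dvd_SU (by omega) (hD b (by omega)))).ord suJ_inj hZ hr hs hsr.symm).inn hS hH

theorem fam_psp {m : ℕ} (hm : 2 ≤ m) : Fam (PSp m F) := by
  obtain ⟨p, f, _, _, hf, hF⟩ := exists_pf' F
  by_cases h4 : m = 2 ∧ p = 2
  · obtain ⟨rfl, rfl⟩ := h4
    obtain ⟨_, -⟩ := S2600.result hf hF
    exact fam_of_cyclic
  obtain ⟨hZ, hS⟩ := center_eq_bot_of_ker (spJ_inj (m := m) (F := F)) (G₀ := GSp m F)
    (h := conj_mem_stab_sp) spJ_mem_GSp fun _ hg => (pspInn_eq_one_iff hm).1 hg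
  have hc := Nat.card_eq_fintype_card (α := F)
  have hle : Inn (PSp m F) ≤ (pspInn m F).range :=
    (inn_psp_eq (by omega)).le.trans (map_le_range _ _)
  have := normal_range_pspInn (F := F) hm
  obtain ⟨π, hπ, -⟩ := exists_proj (pspInn m F).range (pspField m F) (fun a => by
    obtain ⟨g, α, h⟩ := psp_aut p hm (fun h1 h2 => h4 ⟨h1, h2⟩) a
    exact ⟨_, ⟨g, rfl⟩, α, h⟩) fun r => pspField_mem_range hm
  have key : ∀ σ : RingAut F, Fx (pspField m F σ) 2 := fun σ =>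
    (fe_Sp hm σ Nat.prime_two (Or.inr hm)).fx spJ_inj hZ Nat.prime_two _
  refine fam_of' (· = 2) hS (QuotientGroup.lift _ π (hπ ▸ hle)) (fun r hr k => ?_)
    (fun r _ k => k ▸ Fx.dvd (key 1)) (fun t ht _ e => ?_) fun r s hr hs hsr k h => ?_
  · rw [QuotientGroup.ker_lift, ← relIndex_ker, QuotientGroup.ker_mk', hπ, relIndex_inn_psp hm] at k
    exact (Nat.prime_dvd_prime_iff_eq hr Nat.prime_two).1 (k.trans (Nat.gcd_dvd_left _ _))
  · obtain ⟨σ, hσ⟩ := exists_aut_ord (hc.trans hF) ht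
      (card_ringAut (hc.trans hF) ▸ e.trans (card_subgroup_dvd_card _))
    exact ⟨pspField m F σ, hσ ▸ dvd_orderOf_of_hom _ (fun σ k => pspField_mem_range hm (hle k)) σ,
      fun r _ k => k ▸ key σ⟩
  subst k
  obtain ⟨b, hb⟩ : ∃ b, m = m / 2 + b := ⟨m - m / 2, by omega⟩
  have : Nonempty (Fin (m / 2)) := ⟨⟨0, by omega⟩⟩
  have : Nonempty (Fin b) := ⟨⟨0, by omega⟩⟩
  let e := finSumFinEquiv.trans (finCongr hb.symm)
  refine (pr_blocks hr hs (spSplit e) (block_Sp' _ (symp_split e))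
    (block_Sp' _ fun x y => (symp_split e x y).trans (add_comm _ _))
    (dvd_Sp (by omega) (dd_of_le hr (sq_dvd hr) (Or.inr (by omega))))
    (dvd_Sp (by omega) ?_)).ord spJ_inj hZ hr hs hsr.symm
  rw [hc]
  by_cases h3 : s ∣ Fintype.card F
  · exact Or.inl h3
  haveI := Fact.mk hs
  obtain ⟨e, k3, k4, k5⟩ := dim_form hsr h3 (Matrix.symplecticGroup (Fin m) F).subtype
    Subtype.val_injective (Rk2.of_surj hs hsr (QuotientGroup.mk' _) (QuotientGroup.mk'_surjective _)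
      (h.resolve_right hsr)) fun g => H65.ev_map_inv_sp g
  rw [Fintype.card_sum, Fintype.card_fin] at k5
  exact Or.inr ⟨e, k3, by omega, k4⟩

end H67.PA
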